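import Mathlib

/-!
Eigenvalue multiplicities of an integer matrix of finite order modulo a prime not dividing the
order.
-/

set_option autoImplicit false

open Polynomial Matrix

namespace CfsgLib.CrossCharSylow

/-- Split off all factors `Φ_d`. -/
theorem exists_split_cyclotomic {d : ℕ} (hd : 0 < d) (P : ℤ[X]) (hP : P.Monic) :
    ∃ (s : ℕ) (P' : ℤ[X]), P'.Monic ∧ P = cyclotomic d ℤ ^ s * P' ∧ ¬ cyclotomic d ℤ ∣ P' := by
  suffices ∀ k, ∀ P : ℤ[X], P.Monic → P.natDegree = k →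
      ∃ (s : ℕ) (P' : ℤ[X]), P'.Monic ∧ P = cyclotomic d ℤ ^ s * P' ∧ ¬ cyclotomic d ℤ ∣ P' from
    this _ P hP rfl
  intro k
  induction k using Nat.strong_induction_on with
  | _ k ih =>
    intro P hP hk
    by_cases h : cyclotomic d ℤ ∣ P
    · obtain ⟨Q, hQ⟩ := h
      have hmon := cyclotomic.monic d ℤ
      have hQm : Q.Monic := hmon.of_mul_monic_left (hQ ▸ hP)
      have hdeg : Q.natDegree < k := by
        have e := congrArg natDegree hQ
        rw [hmon.natDegree_mul hQm, hk, natDegree_cyclotomic] at e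
        have := Nat.totient_pos.mpr hd
        omega
      obtain ⟨s, P', h1, h2, h3⟩ := ih _ hdeg Q hQm rfl
      exact ⟨s + 1, P', h1, by rw [hQ, h2, pow_succ]; ring, h3⟩
    · exact ⟨0, P, hP, by simp, h⟩

theorem cyclotomic_dvd_iff_aeval {d : ℕ} (hd : 0 < d) {ζ : ℂ} (hζ : IsPrimitiveRoot ζ d)
    (P : ℤ[X]) : cyclotomic d ℤ ∣ P ↔ aeval ζ P = 0 := by
  rw [cyclotomic_eq_minpoly hζ hd]
  exact (minpoly.isIntegrallyClosed_dvd_iff (hζ.isIntegral hd) P).symm

theorem rootMultiplicity_pow_eq {K : Type*} [Field K] {p : K[X]} (hp : p ≠ 0) (a : K) (n : ℕ) :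
    rootMultiplicity a (p ^ n) = n * rootMultiplicity a p := by
  induction n with
  | zero => simp
  | succ n ih =>
    rw [pow_succ, rootMultiplicity_mul (mul_ne_zero (pow_ne_zero _ hp) hp), ih, Nat.succ_mul]

variable {l : ℕ}

theorem charpoly_map_intCast (A : Matrix (Fin l) (Fin l) ℤ) {R : Type*} [CommRing R] :
    (A.map (Int.cast : ℤ → R)).charpoly = A.charpoly.map (Int.castRingHom R) :=
  Matrix.charpoly_map A (Int.castRingHom R)

theorem root_pow_eq_one {A : Matrix (Fin l) (Fin l) ℤ} {m : ℕ} (hA : A ^ m = 1) {μ : ℂ}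
    (h : (A.charpoly.map (Int.castRingHom ℂ)).IsRoot μ) : μ ^ m = 1 := by
  rw [← Matrix.charpoly_map, ← Matrix.mem_spectrum_iff_isRoot_charpoly] at h
  have h2 := spectrum.pow_mem_pow _ m h
  have e : ((Int.castRingHom ℂ).mapMatrix A) ^ m = 1 := by rw [← map_pow, hA, map_one]
  rw [RingHom.mapMatrix_apply] at e
  rw [e] at h2
  rcases isEmpty_or_nonempty (Fin l) with hl | hl
  · exfalso
    rw [spectrum.mem_iff] at h
    exact h (isUnit_of_subsingleton _)
  · simpa [spectrum.one_eq] using h2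

/-- The factor of `X ^ m - 1` complementary to `Φ_d`. -/
noncomputable def coPoly (m d : ℕ) : ℤ[X] := ∏ j ∈ m.divisors.erase d, cyclotomic j ℤ

theorem mul_coPoly {m d : ℕ} (hm : 0 < m) (hd : d ∣ m) :
    cyclotomic d ℤ * coPoly m d = X ^ m - 1 := by
  rw [coPoly, Finset.mul_prod_erase m.divisors (fun j => cyclotomic j ℤ)
    (Nat.mem_divisors.mpr ⟨hd, hm.ne'⟩),
    prod_cyclotomic_eq_X_pow_sub_one hm]

theorem cofactor_dvd_coPoly_pow {A : Matrix (Fin l) (Fin l) ℤ} {m d : ℕ} (hA : A ^ m = 1)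
    (hm : 0 < m) (hd : d ∣ m) {P' : ℤ[X]} (hP : P'.Monic) (hPc : P' ∣ A.charpoly)
    (hndvd : ¬ cyclotomic d ℤ ∣ P') : P' ∣ coPoly m d ^ P'.natDegree := by
  have hd0 : 0 < d := Nat.pos_of_dvd_of_pos hd hm
  refine (Polynomial.map_dvd_map (Int.castRingHom ℂ) Int.cast_injective hP).mp ?_
  set f := P'.map (Int.castRingHom ℂ) with hf
  have hfm : f.Monic := hP.map _
  have hroots : ∀ μ ∈ f.roots, (X - C μ) ∣ (coPoly m d).map (Int.castRingHom ℂ) := by
    intro μ hμ
    have hμ' : f.IsRoot μ := (mem_roots hfm.ne_zero).mp hμ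
    have hμm : μ ^ m = 1 := root_pow_eq_one hA (hμ'.dvd (Polynomial.map_dvd _ hPc))
    rw [dvd_iff_isRoot]
    have h0 : ((X ^ m - 1 : ℤ[X]).map (Int.castRingHom ℂ)).IsRoot μ := by simp [hμm]
    rw [← mul_coPoly hm hd, Polynomial.map_mul, IsRoot.def, eval_mul, mul_eq_zero] at h0
    refine h0.resolve_left fun h1 => hndvd ?_
    have : NeZero (d : ℂ) := ⟨Nat.cast_ne_zero.mpr hd0.ne'⟩
    rw [map_cyclotomic, ← IsRoot.def, isRoot_cyclotomic_iff] at h1
    rw [cyclotomic_dvd_iff_aeval hd0 h1, aeval_def, ← eval_map,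
      RingHom.ext_int (algebraMap ℤ ℂ) (Int.castRingHom ℂ)]
    exact hμ'
  have hsplit : f = (f.roots.map fun μ => X - C μ).prod :=
    (prod_multiset_X_sub_C_of_monic_of_roots_card_eq hfm
      (IsAlgClosed.card_roots_eq_natDegree)).symm
  rw [Polynomial.map_pow, ← hP.natDegree_map (Int.castRingHom ℂ), ← hf,
    ← IsAlgClosed.card_roots_eq_natDegree (p := f)]
  conv_lhs => rw [hsplit]
  refine (Multiset.prod_dvd_prod_of_dvd _ (fun _ => (coPoly m d).map (Int.castRingHom ℂ))
    hroots).trans ?_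
  rw [Multiset.map_const', Multiset.prod_replicate]

theorem coprime_cyclotomic_rat {d : ℕ} (hd : 0 < d) {P' : ℤ[X]} (hP : P'.Monic)
    (h : ¬ cyclotomic d ℤ ∣ P') :
    IsCoprime (cyclotomic d ℚ) (P'.map (Int.castRingHom ℚ)) := by
  refine ((cyclotomic.irreducible_rat hd).coprime_iff_not_dvd).mpr fun hdvd => h ?_
  rw [← map_cyclotomic_int] at hdvd
  exact (Polynomial.map_dvd_map (Int.castRingHom ℚ) Int.cast_injective
    (cyclotomic.monic d ℤ)).mp hdvd

/-- Multiplicity of an eigenvalue of exact order `d` modulo `r`. -/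
theorem eigen_le {A : Matrix (Fin l) (Fin l) ℤ} {m r d : ℕ} [Fact r.Prime] (hA : A ^ m = 1)
    (hrm : ¬ r ∣ m) {a : ZMod r} (ha : IsPrimitiveRoot a d) (hd0 : 0 < d)
    (hne : Module.finrank (ZMod r)
      (Module.End.eigenspace (Matrix.toLin' (A.map (Int.cast : ℤ → ZMod r))ᵀ) a) ≠ 0) :
    ∃ (s : ℕ) (P' : ℤ[X]), P'.Monic ∧ A.charpoly = cyclotomic d ℤ ^ s * P' ∧
      ¬ cyclotomic d ℤ ∣ P' ∧ d ∣ m ∧ Module.finrank (ZMod r)
        (Module.End.eigenspace (Matrix.toLin' (A.map (Int.cast : ℤ → ZMod r))ᵀ) a) ≤ s := by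
  obtain ⟨s, P', hP', hsplit, hndvd⟩ := exists_split_cyclotomic hd0 _ A.charpoly_monic
  set Ab := (A.map (Int.cast : ℤ → ZMod r))ᵀ with hAb
  have hm : 0 < m := Nat.pos_of_ne_zero fun h => hrm (h ▸ dvd_zero r)
  have hmne : (m : ZMod r) ≠ 0 := by rwa [Ne, ZMod.natCast_eq_zero_iff]
  have hdm : d ∣ m := by
    obtain ⟨v, hv, hv0⟩ := Submodule.exists_mem_ne_zero_of_ne_bot
      (p := Module.End.eigenspace (Matrix.toLin' Ab) a)
      fun h => hne (by rw [h, finrank_bot])
    refine (ha.pow_eq_one_iff_dvd m).mp ?_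
    rw [Module.End.mem_eigenspace_iff] at hv
    have hpow : ∀ k : ℕ, (Matrix.toLin' Ab ^ k) v = a ^ k • v := by
      intro k
      induction k with
      | zero => simp
      | succ k ih => rw [pow_succ', Module.End.mul_apply, ih, map_smul, hv, smul_smul, ← pow_succ]
    have h1 := hpow m
    have e : Ab ^ m = 1 := by
      rw [hAb, ← Matrix.transpose_pow,
        show A.map (Int.cast : ℤ → ZMod r) = (Int.castRingHom (ZMod r)).mapMatrix A from rfl,
        ← map_pow, hA, map_one, Matrix.transpose_one]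
    rw [← Matrix.toLin'_pow, e, Matrix.toLin'_one] at h1
    by_contra hne1
    exact hv0 ((smul_eq_zero.mp (show (a ^ m - 1) • v = 0 by
      rw [sub_smul, one_smul, ← h1]; simp)).resolve_left (sub_ne_zero.mpr hne1))
  refine ⟨s, P', hP', hsplit, hndvd, hdm, ?_⟩
  refine (LinearMap.finrank_eigenspace_le _ a).trans ?_
  rw [Matrix.charpoly_toLin', hAb, Matrix.charpoly_transpose, charpoly_map_intCast]
  have hdr : (d : ZMod r) ≠ 0 := fun h => hmne (by
    obtain ⟨c, rfl⟩ := hdm; rw [Nat.cast_mul, h, zero_mul])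
  have : NeZero (d : ZMod r) := ⟨hdr⟩
  have hroot : (cyclotomic d (ZMod r)).IsRoot a := isRoot_cyclotomic_iff.mpr ha
  have hsep : (X ^ m - 1 : (ZMod r)[X]).Separable := by
    rw [← map_one C]
    exact separable_X_pow_sub_C 1 hmne one_ne_zero
  have hco : ¬ ((coPoly m d).map (Int.castRingHom (ZMod r))).IsRoot a := by
    intro h
    have e := congrArg (Polynomial.map (Int.castRingHom (ZMod r))) (mul_coPoly hm hdm)
    simp only [Polynomial.map_mul, map_cyclotomic_int, Polynomial.map_sub, Polynomial.map_pow,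
      Polynomial.map_X, Polynomial.map_one] at e
    rw [← e] at hsep
    have hcop := hsep.isCoprime
    exact not_isUnit_X_sub_C a
      (hcop.isUnit_of_dvd' (dvd_iff_isRoot.mpr hroot) (dvd_iff_isRoot.mpr h))
  have hP'root : ¬ (P'.map (Int.castRingHom (ZMod r))).IsRoot a := by
    intro h
    have h2 := h.dvd (Polynomial.map_dvd (Int.castRingHom (ZMod r))
      (cofactor_dvd_coPoly_pow hA hm hdm hP' (hsplit ▸ dvd_mul_left _ _) hndvd))
    rw [IsRoot.def, Polynomial.map_pow, eval_pow] at h2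
    exact hco (eq_zero_of_pow_eq_zero h2)
  have hcn : cyclotomic d (ZMod r) ≠ 0 := cyclotomic_ne_zero _ _
  rw [hsplit, Polynomial.map_mul, Polynomial.map_pow, map_cyclotomic_int,
    rootMultiplicity_mul (mul_ne_zero (pow_ne_zero _ hcn) (hP'.map _).ne_zero),
    rootMultiplicity_eq_zero hP'root, add_zero, rootMultiplicity_pow_eq hcn]
  have h1 : rootMultiplicity a (cyclotomic d (ZMod r)) ≤ 1 :=
    rootMultiplicity_le_one_of_separable (separable_cyclotomic d (ZMod r)) a
  calc s * rootMultiplicity a (cyclotomic d (ZMod r)) ≤ s * 1 := Nat.mul_le_mul le_rfl h1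
    _ = s := mul_one s

theorem natDegree_split {A : Matrix (Fin l) (Fin l) ℤ} {d s : ℕ} {P' : ℤ[X]} (hP' : P'.Monic)
    (h : A.charpoly = cyclotomic d ℤ ^ s * P') : s * d.totient + P'.natDegree = l := by
  have e := congrArg natDegree h
  rw [((cyclotomic.monic d ℤ).pow s).natDegree_mul hP', (cyclotomic.monic d ℤ).natDegree_pow,
    natDegree_cyclotomic, A.charpoly_natDegree_eq_dim, Fintype.card_fin] at e
  exact e.symm

/-- `Φ_d(A) P'(A) = 0` over `ℚ`. -/
theorem aeval_rat_mul_eq_zero {A : Matrix (Fin l) (Fin l) ℤ} {m d s : ℕ} {P' : ℤ[X]}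
    (hA : A ^ m = 1) (hm : 0 < m) (hd : d ∣ m)
    (h : A.charpoly = cyclotomic d ℤ ^ s * P') :
    aeval (A.map (Int.cast : ℤ → ℚ)) (cyclotomic d ℚ * P'.map (Int.castRingHom ℚ)) = 0 := by
  set Aq := A.map (Int.cast : ℤ → ℚ)
  set p := P'.map (Int.castRingHom ℚ)
  set c := cyclotomic d ℚ
  set o := (coPoly m d).map (Int.castRingHom ℚ)
  have hco : c * o = X ^ m - 1 := by
    have e := congrArg (Polynomial.map (Int.castRingHom ℚ)) (mul_coPoly hm hd)
    simpa [c, o] using e
  have hsep : (c * o).Separable := by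
    rw [hco, ← map_one C]
    exact separable_X_pow_sub_C 1 (Nat.cast_ne_zero.mpr hm.ne') one_ne_zero
  obtain ⟨u, v, huv⟩ := (hsep.isCoprime.pow_left (m := s))
  have hch : aeval Aq (c ^ s * p) = 0 := by
    have e := Matrix.aeval_self_charpoly Aq
    rw [charpoly_map_intCast, h] at e
    simpa [c, p, Polynomial.map_mul, Polynomial.map_pow] using e
  have hpow : aeval Aq (c * o) = 0 := by
    have e : Aq ^ m = 1 := by
      rw [show Aq = (Int.castRingHom ℚ).mapMatrix A from rfl, ← map_pow, hA, map_one]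
    rw [hco, map_sub, map_pow, aeval_X, map_one, e, sub_self]
  have : c * p = (u * c) * (c ^ s * p) + (v * p) * (c * o) := by
    calc c * p = c * p * (u * c ^ s + v * o) := by rw [huv, mul_one]
      _ = _ := by ring
  rw [this]
  simp [hch, hpow]

theorem aeval_int_eq_zero_of_rat {A : Matrix (Fin l) (Fin l) ℤ} {P : ℤ[X]}
    (h : aeval (A.map (Int.cast : ℤ → ℚ)) (P.map (Int.castRingHom ℚ)) = 0) : aeval A P = 0 := by
  rw [show P.map (Int.castRingHom ℚ) = P.map (algebraMap ℤ ℚ) from rfl, aeval_map_algebraMap,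
    show A.map (Int.cast : ℤ → ℚ) = ((Int.castRingHom ℚ).toIntAlgHom).mapMatrix A from rfl,
    aeval_algHom_apply] at h
  ext i j
  have := congrFun (congrFun h i) j
  simpa using this

/-- Full multiplicity: `Φ_d(A) = 0`. -/
theorem aeval_eq_zero_of_full {A : Matrix (Fin l) (Fin l) ℤ} {m d s : ℕ} {P' : ℤ[X]}
    (hA : A ^ m = 1) (hm : 0 < m) (hd : d ∣ m) (hP' : P'.Monic)
    (h : A.charpoly = cyclotomic d ℤ ^ s * P') (hs : s * d.totient = l) :
    aeval A (cyclotomic d ℤ) = 0 := by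
  have h1 : P' = 1 := hP'.natDegree_eq_zero.mp (by have := natDegree_split hP' h; omega)
  refine aeval_int_eq_zero_of_rat ?_
  have := aeval_rat_mul_eq_zero hA hm hd h
  rw [h1, Polynomial.map_one, mul_one] at this
  rwa [map_cyclotomic_int]

/-- Multiplicity one short of full: `Φ_d(A)` has rank at most one. -/
theorem rank_aeval_le_one {A : Matrix (Fin l) (Fin l) ℤ} {m d s : ℕ} {P' : ℤ[X]}
    (hA : A ^ m = 1) (hm : 0 < m) (hd : d ∣ m) (hP' : P'.Monic)
    (h : A.charpoly = cyclotomic d ℤ ^ s * P') (hnd : ¬ cyclotomic d ℤ ∣ P')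
    (hs : s * d.totient + 1 = l) :
    Module.finrank ℚ (LinearMap.range (Matrix.toLin'
      ((aeval A (cyclotomic d ℤ)).map (Int.cast : ℤ → ℚ)))) ≤ 1 := by
  have hd0 : 0 < d := Nat.pos_of_dvd_of_pos hd hm
  have hdeg : P'.natDegree = 1 := by have := natDegree_split hP' h; omega
  obtain ⟨μ, rfl⟩ : ∃ μ : ℤ, P' = X - C μ := by
    refine ⟨-P'.coeff 0, ?_⟩
    conv_lhs => rw [hP'.eq_X_add_C hdeg]
    simp
  have hcop := coprime_cyclotomic_rat hd0 hP' hnd
  have hzero := aeval_rat_mul_eq_zero hA hm hd h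
  simp only [Polynomial.map_sub, Polynomial.map_X, Polynomial.map_C] at hcop hzero
  simp only [eq_intCast (Int.castRingHom ℚ)] at hcop hzero
  set Aq := A.map (Int.cast : ℤ → ℚ) with hAq
  have e : (aeval A (cyclotomic d ℤ)).map (Int.cast : ℤ → ℚ) = aeval Aq (cyclotomic d ℚ) := by
    rw [← map_cyclotomic_int d ℚ, show (cyclotomic d ℤ).map (Int.castRingHom ℚ)
        = (cyclotomic d ℤ).map (algebraMap ℤ ℚ) from rfl, aeval_map_algebraMap,
      show Aq = ((Int.castRingHom ℚ).toIntAlgHom).mapMatrix A from rfl, aeval_algHom_apply]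
    rfl
  rw [e]
  refine (Submodule.finrank_mono (t := Module.End.eigenspace (Matrix.toLin' Aq) (μ : ℚ)) ?_).trans
    ((LinearMap.finrank_eigenspace_le _ _).trans ?_)
  · rintro _ ⟨x, rfl⟩
    rw [Module.End.mem_eigenspace_iff]
    rw [mul_comm, map_mul, map_sub, aeval_X, aeval_C] at hzero
    have e2 := congrArg (fun M => Matrix.toLin' M x) hzero
    simp [sub_mul, Algebra.algebraMap_eq_smul_one, Matrix.toLin'_apply, Matrix.sub_mulVec,
      Matrix.smul_mulVec, sub_eq_zero, ← Matrix.mulVec_mulVec] at e2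
    simpa [Matrix.toLin'_apply] using e2
  · rw [Matrix.charpoly_toLin', hAq, charpoly_map_intCast, h, Polynomial.map_mul,
      Polynomial.map_pow, map_cyclotomic_int, Polynomial.map_sub, Polynomial.map_X,
      Polynomial.map_C, eq_intCast,
      rootMultiplicity_mul (mul_ne_zero (pow_ne_zero _ (cyclotomic_ne_zero _ _))
        (X_sub_C_ne_zero _)), rootMultiplicity_pow_eq (cyclotomic_ne_zero _ _),
      rootMultiplicity_eq_zero (p := cyclotomic d ℚ) fun hr => not_isUnit_X_sub_C (μ : ℚ)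
        (hcop.isUnit_of_dvd' (dvd_iff_isRoot.mpr hr) dvd_rfl), mul_zero, zero_add,
      rootMultiplicity_X_sub_C_self]

end CfsgLib.CrossCharSylow
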