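import Mathlib

/-!
A finite abelian `r`-group of exponent dividing `r ^ M`, of order `r ^ (a M)`, with at most `r ^ a`
elements killed by `r`, is homocyclic.
-/

set_option autoImplicit false

namespace CfsgLib.CrossCharSylow

theorem homocyclic_of_bounds {P : Type*} [Group P] [Finite P] {r a M : ℕ} [Fact r.Prime]
    (hcomm : ∀ x y : P, x * y = y * x) (hexp : ∀ x : P, x ^ r ^ M = 1)
    (hcard : Nat.card P = r ^ (a * M)) (hM : 0 < M)
    (htor : Nat.card {x : P // x ^ r = 1} ≤ r ^ a) :
    Nonempty (P ≃* (Fin a → Multiplicative (ZMod (r ^ M)))) := by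
  have hr : r.Prime := Fact.out
  let _ : CommGroup P := { (inferInstance : Group P) with mul_comm := hcomm }
  obtain ⟨ι, hι, n, hn, ⟨e⟩⟩ := CommGroup.equiv_prod_multiplicative_zmod_of_finite P
  classical
  have hnd : ∀ i, n i ∣ r ^ M := by
    intro i
    have h := hexp (e.symm (Pi.mulSingle i (Multiplicative.ofAdd 1)))
    rw [← map_pow, ← Pi.mulSingle_pow, map_eq_one_iff _ e.symm.injective, Pi.mulSingle_eq_one_iff,
      ← ofAdd_nsmul, ofAdd_eq_one, nsmul_eq_mul, mul_one, ZMod.natCast_eq_zero_iff] at h
    exact h
  choose k hkM hk using fun i => (Nat.dvd_prime_pow hr).mp (hnd i)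
  have hk0 : ∀ i, 1 ≤ k i := fun i => by
    have := hn i
    rw [hk i] at this
    by_contra h
    rw [show k i = 0 by omega] at this
    simp at this
  have : ∀ i, NeZero (n i) := fun i => ⟨by have := hn i; omega⟩
  have hsum : ∑ i, k i = a * M := by
    have h := hcard
    rw [Nat.card_congr e.toEquiv, Nat.card_pi,
      Finset.prod_congr rfl (fun i _ => show Nat.card (Multiplicative (ZMod (n i))) = r ^ k i by
        rw [Nat.card_congr Multiplicative.toAdd, Nat.card_zmod, hk i]),
      Finset.prod_pow_eq_pow_sum] at h
    exact Nat.pow_right_injective hr.two_le h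
  have hle : Fintype.card ι ≤ a := by
    have hker : r ^ Fintype.card ι ≤ Nat.card {x : P // x ^ r = 1} := by
      have hc : ∀ i, r ≤ Nat.card {x : Multiplicative (ZMod (n i)) // x ^ r = 1} := fun i => by
        have h2 : Nat.card (powMonoidHom r : Multiplicative (ZMod (n i)) →* _).ker = r := by
          rw [IsCyclic.card_powMonoidHom_ker, Nat.card_congr Multiplicative.toAdd, Nat.card_zmod,
            hk i]
          exact Nat.gcd_eq_right (dvd_pow_self r (by have := hk0 i; omega))
        exact h2.ge
      calc r ^ Fintype.card ι = ∏ _i : ι, r := by simp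
        _ ≤ ∏ i, Nat.card {x : Multiplicative (ZMod (n i)) // x ^ r = 1} :=
          Finset.prod_le_prod' fun i _ => hc i
        _ = Nat.card ((i : ι) → {x : Multiplicative (ZMod (n i)) // x ^ r = 1}) := Nat.card_pi.symm
        _ ≤ _ := by
          refine Nat.card_le_card_of_injective
            (fun f => ⟨e.symm fun i => (f i).1, by
              rw [← map_pow, map_eq_one_iff _ e.symm.injective]
              exact funext fun i => (f i).2⟩) fun f g h => ?_
          exact funext fun i =>
            Subtype.ext (congrFun (e.symm.injective (congrArg Subtype.val h)) i)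
    exact (Nat.pow_le_pow_iff_right hr.one_lt).mp (hker.trans htor)
  have hcardι : Fintype.card ι = a := by
    have h1 : ∑ i, k i ≤ Fintype.card ι * M := by
      have := Finset.sum_le_card_nsmul Finset.univ k M fun i _ => hkM i
      simpa using this
    rw [hsum] at h1
    exact le_antisymm hle (Nat.le_of_mul_le_mul_right h1 hM)
  have hall : ∀ i, n i = r ^ M := by
    intro i
    rw [hk i]
    have h1 : ∑ j, k j = ∑ _j : ι, M := by simp [hsum, hcardι]
    rw [(Finset.sum_eq_sum_iff_of_le fun j _ => hkM j).mp h1 i (Finset.mem_univ i)]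
  exact ⟨e.trans ((MulEquiv.piCongrRight fun i =>
      (AddEquiv.toMultiplicative (ZMod.ringEquivCongr (hall i)).toAddEquiv :)).trans
    (MulEquiv.arrowCongr (Fintype.equivFinOfCardEq hcardι) (MulEquiv.refl _)))⟩

end CfsgLib.CrossCharSylow
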