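import Cfsg.Agent.CrossCharSylow.Eigen

/-!
Isometries of the root lattices of types D4, E6, E7 with exceptionally large eigenspaces do not
come from the Weyl group.
-/

set_option autoImplicit false

open Polynomial Matrix

namespace CfsgLib.CrossCharSylow

variable {l : ℕ}

/-- An integral matrix of rational rank at most one. -/
theorem exists_rank_one (R : Matrix (Fin l) (Fin l) ℤ) (hR : R ≠ 0)
    (hrk : Module.finrank ℚ (LinearMap.range (Matrix.toLin' (R.map (Int.cast : ℤ → ℚ)))) ≤ 1) :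
    ∃ u f b : Fin l → ℤ, b ⬝ᵥ u = 1 ∧ f ≠ 0 ∧ R = vecMulVec u f := by
  obtain ⟨i0, j0, h0⟩ : ∃ i j, R i j ≠ 0 := by
    by_contra h
    push Not at h
    exact hR (Matrix.ext h)
  obtain ⟨g0, hg0, hgcd⟩ : ∃ g : ℤ, g ≠ 0 ∧ Finset.univ.gcd (fun i => R i j0) = g :=
    ⟨_, fun h => h0 (Finset.gcd_eq_zero_iff.mp h i0 (Finset.mem_univ _)), rfl⟩
  obtain ⟨u, hu, hu1⟩ := Finset.extract_gcd (fun i => R i j0) ⟨i0, Finset.mem_univ i0⟩
  rw [hgcd] at hu
  obtain ⟨b, hb⟩ : ∃ b : Fin l → ℤ, (Finset.univ.gcd u) = ∑ i, b i * u i := by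
    obtain ⟨b, hb⟩ := Finset.gcd_eq_sum_mul Finset.univ u
    exact ⟨b, hb.trans (Finset.sum_congr rfl fun i _ => mul_comm _ _)⟩
  rw [hu1] at hb
  let f : Fin l → ℤ := fun j => ∑ i, b i * R i j
  have hcol : ∀ j i, R i j = u i * f j := by
    intro j i
    set L := Matrix.toLin' (R.map (Int.cast : ℤ → ℚ))
    let w : Fin l → ℚ := fun i => (R i j0 : ℚ)
    have hmem : ∀ j, (fun i => (R i j : ℚ)) ∈ LinearMap.range L := fun j =>
      ⟨Pi.single j 1, by ext i; simp [L, Matrix.toLin'_apply, Matrix.mulVec_single_one]⟩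
    have hw : w ≠ 0 := fun h => h0 (by simpa [w] using congrFun h i0)
    obtain ⟨⟨v, hv⟩, hspan⟩ := finrank_le_one_iff.mp hrk
    obtain ⟨c1, h1⟩ := hspan ⟨w, hmem j0⟩
    obtain ⟨c2, h2⟩ := hspan ⟨_, hmem j⟩
    have h1' : ∀ i, c1 * v i = (R i j0 : ℚ) := fun i => congrFun (congrArg Subtype.val h1) i
    have h2' : ∀ i, c2 * v i = (R i j : ℚ) := fun i => congrFun (congrArg Subtype.val h2) i
    have hc1 : c1 ≠ 0 := fun h => hw (funext fun i => by
      have := h1' i; rw [h, zero_mul] at this; exact this.symm)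
    have hlam : ∀ i, (R i j : ℚ) = c2 / c1 * g0 * u i := fun i => by
      have e := h1' i
      rw [hu i (Finset.mem_univ i)] at e
      push_cast at e
      rw [← h2', mul_assoc (c2 / c1), ← e]
      field_simp
    have hf : (f j : ℚ) = c2 / c1 * g0 := by
      simp only [f, Int.cast_sum, Int.cast_mul, hlam]
      have hb' : (1 : ℚ) = ∑ i, (b i : ℚ) * u i := by exact_mod_cast hb
      calc ∑ x, (b x : ℚ) * (c2 / c1 * g0 * u x) = c2 / c1 * g0 * ∑ x, (b x : ℚ) * u x := by
            rw [Finset.mul_sum]; exact Finset.sum_congr rfl fun x _ => by ring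
        _ = _ := by rw [← hb', mul_one]
    have e2 : (R i j : ℚ) = ((u i * f j : ℤ) : ℚ) := by rw [hlam i, Int.cast_mul, hf]; ring
    exact_mod_cast e2
  refine ⟨u, f, b, hb.symm, fun h => h0 ?_, ?_⟩
  · rw [hcol, h]; simp
  · ext i j; exact hcol j i

/-- A reflection-like relation from invariance of the form. -/
theorem rank_one_isometry {C B : Matrix (Fin l) (Fin l) ℤ} {u f : Fin l → ℤ} (hC : C.IsSymm)
    (hB : Bᵀ * C * B = C) (hR : B + 1 = vecMulVec u f) (hf : f ≠ 0) :
    2 • (C *ᵥ u) = (u ⬝ᵥ C *ᵥ u) • f := by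
  set g := C *ᵥ u with hg
  set N := u ⬝ᵥ g
  have hug : u ᵥ* C = g := by
    rw [hg, ← Matrix.vecMul_transpose, hC]
  have hB' : B = vecMulVec u f - 1 := eq_sub_of_add_eq hR
  have hmat : N • vecMulVec f f = vecMulVec f g + vecMulVec g f := by
    have e := hB
    rw [hB', Matrix.transpose_sub, Matrix.transpose_one, Matrix.transpose_vecMulVec] at e
    simp only [sub_mul, mul_sub, one_mul, mul_one, Matrix.vecMulVec_mul, Matrix.mul_vecMulVec,
      ← hg, hug, Matrix.vecMulVec_mulVec] at e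
    ext i j
    have := congrFun (congrFun e i) j
    simp [Matrix.vecMulVec_apply, dotProduct_comm g u] at this ⊢
    linarith
  obtain ⟨j, hj⟩ := Function.ne_iff.mp hf
  simp only [Pi.zero_apply] at hj
  funext k
  have h1 := congrFun (congrFun hmat j) j
  have h2 := congrFun (congrFun hmat j) k
  simp [Matrix.vecMulVec_apply] at h1 h2
  simp only [Pi.smul_apply, nsmul_eq_mul, smul_eq_mul]
  push_cast
  have h3 : N * f j = 2 * g j := mul_right_cancel₀ hj (by linarith)
  have h4 : f j * (2 * g k - N * f k) = 0 := by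
    linear_combination (-2 : ℤ) * h2 + f k * h3
  have := (mul_eq_zero.mp h4).resolve_left hj
  linarith

end CfsgLib.CrossCharSylow
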