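import Cfsg.Agent.CrossCharSylow.Lattice

/-!
The exceptional multiplicities for D4, E6, E7.
-/

set_option autoImplicit false

open Polynomial Matrix

namespace CfsgLib.CrossCharSylow

variable {l : ℕ}

theorem cyclotomic_four : cyclotomic 4 ℤ = X ^ 2 + 1 := by
  rw [show (4 : ℕ) = 2 ^ (1 + 1) from rfl, cyclotomic_prime_pow_eq_geom_sum Nat.prime_two]
  simp [Finset.sum_range_succ, add_comm]

theorem aeval_mulVec_of_fixed {R : Type*} [CommRing R] (M : Matrix (Fin l) (Fin l) R)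
    {v : Fin l → R} (hv : M *ᵥ v = v) (P : R[X]) : aeval M P *ᵥ v = P.eval 1 • v := by
  induction P using Polynomial.induction_on' with
  | add P Q hP hQ => rw [map_add, Matrix.add_mulVec, hP, hQ, eval_add, add_smul]
  | monomial n c =>
    have hn : (M ^ n) *ᵥ v = v := by
      induction n with
      | zero => simp
      | succ n ih => rw [pow_succ, ← Matrix.mulVec_mulVec, hv, ih]
    rw [aeval_monomial, Algebra.algebraMap_eq_smul_one, smul_one_mul, Matrix.smul_mulVec, hn,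
      eval_monomial, one_pow, mul_one]

/-- A polynomial with non-zero value at 1 modulo `p` cannot kill a matrix fixing a vector mod `p`. -/
theorem false_of_fixed {p : ℕ} {A : Matrix (Fin l) (Fin l) ℤ} {v : Fin l → ZMod p}
    (hv0 : v ≠ 0) (hv : (A.map (Int.cast : ℤ → ZMod p)) *ᵥ v = v) {P : ℤ[X]}
    (hP : IsUnit ((P.eval 1 : ℤ) : ZMod p)) (h : aeval A P = 0) : False := by
  apply hv0
  have e := aeval_mulVec_of_fixed _ hv (P.map (Int.castRingHom (ZMod p)))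
  rw [show (P.map (Int.castRingHom (ZMod p))) = P.map (algebraMap ℤ (ZMod p)) from rfl,
    aeval_map_algebraMap,
    show A.map (Int.cast : ℤ → ZMod p) = ((Int.castRingHom (ZMod p)).toIntAlgHom).mapMatrix A from rfl,
    aeval_algHom_apply, h, map_zero, Matrix.zero_mulVec,
    eval_map_algebraMap, aeval_def, eval₂_at_one] at e
  exact hP.smul_eq_zero.mp (by simpa using e.symm)

/-- The quadratic form of E6. -/
def qE6 (y : Fin 6 → ℤ) : ℤ :=
  y 0 ^ 2 + y 1 ^ 2 + y 2 ^ 2 + y 3 ^ 2 + y 4 ^ 2 + y 5 ^ 2 -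
    y 0 * y 2 - y 2 * y 3 - y 1 * y 3 - y 3 * y 4 - y 4 * y 5

/-- The quadratic form of E7. -/
def qE7 (y : Fin 7 → ℤ) : ℤ :=
  y 0 ^ 2 + y 1 ^ 2 + y 2 ^ 2 + y 3 ^ 2 + y 4 ^ 2 + y 5 ^ 2 + y 6 ^ 2 -
    y 0 * y 2 - y 2 * y 3 - y 1 * y 3 - y 3 * y 4 - y 4 * y 5 - y 5 * y 6

/-- The Cartan matrix of E6. -/
def cE6 : Matrix (Fin 6) (Fin 6) ℤ :=
  !![2, 0, -1, 0, 0, 0; 0, 2, 0, -1, 0, 0; -1, 0, 2, -1, 0, 0; 0, -1, -1, 2, -1, 0;
    0, 0, 0, -1, 2, -1; 0, 0, 0, 0, -1, 2]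

/-- The Cartan matrix of E7. -/
def cE7 : Matrix (Fin 7) (Fin 7) ℤ :=
  !![2, 0, -1, 0, 0, 0, 0; 0, 2, 0, -1, 0, 0, 0; -1, 0, 2, -1, 0, 0, 0; 0, -1, -1, 2, -1, 0, 0;
    0, 0, 0, -1, 2, -1, 0; 0, 0, 0, 0, -1, 2, -1; 0, 0, 0, 0, 0, -1, 2]

/-- The Cartan matrix of D4. -/
def cD4 : Matrix (Fin 4) (Fin 4) ℤ :=
  !![2, -1, 0, 0; -1, 2, -1, -1; 0, -1, 2, 0; 0, -1, 0, 2]

theorem qE6_eq (y : Fin 6 → ℤ) : y ⬝ᵥ cE6 *ᵥ y = 2 * qE6 y := by
  simp [dotProduct, Matrix.mulVec, cE6, qE6, Fin.sum_univ_six]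
  ring

theorem qE7_eq (y : Fin 7 → ℤ) : y ⬝ᵥ cE7 *ᵥ y = 2 * qE7 y := by
  simp [dotProduct, Matrix.mulVec, cE7, qE7, Fin.sum_univ_seven]
  ring

theorem qE6_nonneg (y : Fin 6 → ℤ) : 0 ≤ qE6 y := by
  simp only [qE6]
  nlinarith [sq_nonneg (2 * y 0 - y 2), sq_nonneg (2 * y 1 - y 3), sq_nonneg (3 * y 2 - 2 * y 3),
    sq_nonneg (5 * y 3 - 6 * y 4), sq_nonneg (4 * y 4 - 5 * y 5), sq_nonneg (y 5)]

theorem qE7_nonneg (y : Fin 7 → ℤ) : 0 ≤ qE7 y := by
  simp only [qE7]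
  nlinarith [sq_nonneg (2 * y 0 - y 2), sq_nonneg (2 * y 1 - y 3), sq_nonneg (3 * y 2 - 2 * y 3),
    sq_nonneg (5 * y 3 - 6 * y 4), sq_nonneg (4 * y 4 - 5 * y 5), sq_nonneg (3 * y 5 - 4 * y 6),
    sq_nonneg (y 6)]

/-- Data extracted from a rank-one `B + 1`. -/
theorem norm_data {C B : Matrix (Fin l) (Fin l) ℤ} (hC : C.IsSymm) (hB : Bᵀ * C * B = C)
    (hne : B + 1 ≠ 0)
    (hrk : Module.finrank ℚ (LinearMap.range (Matrix.toLin' ((B + 1).map (Int.cast : ℤ → ℚ)))) ≤ 1)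
    (q : (Fin l → ℤ) → ℤ) (hq : ∀ y, y ⬝ᵥ C *ᵥ y = 2 * q y) (hq0 : ∀ y, 0 ≤ q y)
    {Adj : Matrix (Fin l) (Fin l) ℤ} {δ : ℕ} (hδ : 0 < δ) (hAdj : Adj * C = (δ : ℤ) • 1) :
    ∃ u f b : Fin l → ℤ, b ⬝ᵥ u = 1 ∧ f ≠ 0 ∧ B + 1 = vecMulVec u f ∧ 0 < q u ∧
      q u ∣ (δ : ℤ) ∧ C *ᵥ u = q u • f := by
  obtain ⟨u, f, b, hb, hf, hR⟩ := exists_rank_one _ hne hrk
  have h2 := rank_one_isometry hC hB hR hf
  rw [hq] at h2
  have hCu : C *ᵥ u = q u • f := by
    funext k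
    have := congrFun h2 k
    simp only [Pi.smul_apply, nsmul_eq_mul, smul_eq_mul] at this ⊢
    push_cast at this
    linarith
  have hdiv : q u ∣ (δ : ℤ) := by
    refine ⟨b ⬝ᵥ Adj *ᵥ f, ?_⟩
    have : (δ : ℤ) * (b ⬝ᵥ u) = q u * (b ⬝ᵥ Adj *ᵥ f) := by
      have e : Adj *ᵥ (C *ᵥ u) = (δ : ℤ) • u := by
        rw [Matrix.mulVec_mulVec, hAdj, Matrix.smul_mulVec, Matrix.one_mulVec]
      rw [hCu, Matrix.mulVec_smul] at e
      rw [← smul_eq_mul, ← dotProduct_smul, ← e, dotProduct_smul, smul_eq_mul]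
    rwa [hb, mul_one] at this
  refine ⟨u, f, b, hb, hf, hR, lt_of_le_of_ne (hq0 u) fun h => ?_, hdiv, hCu⟩
  rw [← h] at hdiv
  simp at hdiv
  omega

/-- `δ C⁻¹` for E6. -/
def adjE6 : Matrix (Fin 6) (Fin 6) ℤ :=
  !![4, 3, 5, 6, 4, 2; 3, 6, 6, 9, 6, 3; 5, 6, 10, 12, 8, 4; 6, 9, 12, 18, 12, 6;
    4, 6, 8, 12, 10, 5; 2, 3, 4, 6, 5, 4]

/-- `δ C⁻¹` for E7. -/
def adjE7 : Matrix (Fin 7) (Fin 7) ℤ :=
  !![4, 4, 6, 8, 6, 4, 2; 4, 7, 8, 12, 9, 6, 3; 6, 8, 12, 16, 12, 8, 4;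
    8, 12, 16, 24, 18, 12, 6; 6, 9, 12, 18, 15, 10, 5; 4, 6, 8, 12, 10, 8, 4;
    2, 3, 4, 6, 5, 4, 3]

/-- The vector `δ C⁻¹ e` generating the radical mod 3 in E6. -/
def vE6 : Fin 6 → ℤ := ![4, 3, 5, 6, 4, 2]

/-- The vector `δ C⁻¹ e` generating the radical mod 2 in E7. -/
def vE7 : Fin 7 → ℤ := ![2, 3, 4, 6, 5, 4, 3]

/-- No element with `-1` of multiplicity 5 in E6. -/
theorem e6_false {A : Matrix (Fin 6) (Fin 6) ℤ} (hA : Aᵀ * cE6 * A = cE6)
    (hfix : (A.map (Int.cast : ℤ → ZMod 3)) *ᵥ (fun i => (vE6 i : ZMod 3)) =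
      fun i => (vE6 i : ZMod 3))
    (hrk : Module.finrank ℚ (LinearMap.range (Matrix.toLin' ((A + 1).map (Int.cast : ℤ → ℚ)))) ≤ 1) :
    False := by
  set v : Fin 6 → ZMod 3 := fun i => (vE6 i : ZMod 3) with hv
  have hv0 : v ≠ 0 := by rw [hv]; decide
  have hne : A + 1 ≠ 0 := fun h => false_of_fixed hv0 hfix (P := X + 1)
    (by simp only [eval_add, eval_X, eval_one]; decide) (by simpa using h)
  obtain ⟨u, f, b, hb, -, hR, hpos, hdvd, -⟩ := norm_data (by decide) hA hne hrk qE6 qE6_eq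
    qE6_nonneg (Adj := adjE6) (δ := 3) (by norm_num) (by decide)
  set ub : Fin 6 → ZMod 3 := fun i => (u i : ZMod 3) with hub
  obtain ⟨c, hc⟩ : ∃ c : ZMod 3, c • ub = (2 : ZMod 3) • v := by
    refine ⟨(fun i => (f i : ZMod 3)) ⬝ᵥ v, ?_⟩
    have e : ((A + 1).map (Int.cast : ℤ → ZMod 3)) *ᵥ v = (2 : ZMod 3) • v := by
      rw [Matrix.map_add Int.cast Int.cast_add, Matrix.add_mulVec, hfix,
        Matrix.map_one Int.cast Int.cast_zero Int.cast_one, Matrix.one_mulVec, two_smul]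
    rw [← e, hR]
    funext i
    simp [Matrix.mulVec, dotProduct, Matrix.vecMulVec_apply, hub, Finset.sum_mul]
    exact Finset.sum_congr rfl fun _ _ => by ring
  have hc0 : c ≠ 0 := by
    intro h
    rw [h, zero_smul] at hc
    have h5 := congrFun hc 2
    revert h5
    rw [hv]
    decide
  obtain ⟨k, hk, hk2⟩ : ∃ k : ℤ, (∀ i, (k * vE6 i : ZMod 3) = (u i : ZMod 3)) ∧
      (k * k) % 3 = 1 := by
    refine ⟨2 * (c.val : ℤ), fun i => ?_, ?_⟩
    · have e := congrFun hc i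
      simp only [Pi.smul_apply, smul_eq_mul, hv, hub] at e
      have hcc : c * c = 1 := by
        have key : ∀ a : ZMod 3, a ≠ 0 → a * a = 1 := by decide
        exact key c hc0
      push_cast
      rw [ZMod.natCast_zmod_val]
      calc 2 * c * (vE6 i : ZMod 3) = c * (2 * (vE6 i : ZMod 3)) := by ring
        _ = c * (c * (u i : ZMod 3)) := by rw [e]
        _ = _ := by rw [← mul_assoc, hcc, one_mul]
    · have : c.val = 1 ∨ c.val = 2 :=
        (show ∀ a : ZMod 3, a ≠ 0 → a.val = 1 ∨ a.val = 2 by decide) c hc0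
      rcases this with h | h <;> simp [h]
  have hy : ∀ i, ∃ y : ℤ, u i = k * vE6 i + 3 * y := fun i => by
    have h3 : ((u i - k * vE6 i : ℤ) : ZMod 3) = 0 := by push_cast; rw [hk]; ring
    obtain ⟨y, hy⟩ := (ZMod.intCast_zmod_eq_zero_iff_dvd _ 3).mp h3
    exact ⟨y, by push_cast at hy; linarith⟩
  choose y hy using hy
  have hq : qE6 u = 6 * (k * k) + 9 * (k * y 0) + 9 * qE6 y := by
    simp only [qE6, hy, show vE6 0 = 4 from rfl,
      show vE6 1 = 3 from rfl,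
      show vE6 2 = 5 from rfl,
      show vE6 3 = 6 from rfl,
      show vE6 4 = 4 from rfl,
      show vE6 5 = 2 from rfl]
    ring
  have h3 : qE6 u = 1 ∨ qE6 u = 3 := by
    have := Int.le_of_dvd (by norm_num) hdvd
    generalize qE6 u = n at *
    interval_cases n <;> first | omega | norm_num at hdvd
  generalize k * k = kk at hk2 hq
  generalize k * y 0 = ky at hq
  omega

/-- No element with `±i` of multiplicity 3 in E7. -/
theorem e7_false {A : Matrix (Fin 7) (Fin 7) ℤ} {m : ℕ} (hm : 0 < m) (hAm : A ^ m = 1)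
    (hA : Aᵀ * cE7 * A = cE7)
    (hrk : Module.finrank ℚ
      (LinearMap.range (Matrix.toLin' ((A ^ 2 + 1).map (Int.cast : ℤ → ℚ)))) ≤ 1) : False := by
  set B := A ^ 2 with hB
  have hBC : Bᵀ * cE7 * B = cE7 := by
    rw [hB, pow_two, Matrix.transpose_mul]
    calc Aᵀ * Aᵀ * cE7 * (A * A) = Aᵀ * (Aᵀ * cE7 * A) * A := by simp only [mul_assoc]
      _ = cE7 := by rw [hA, hA]
  have hne : B + 1 ≠ 0 := by
    intro h
    have h' : B = -1 := eq_neg_of_add_eq_zero_left h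
    have e := congrArg Matrix.det h'
    rw [hB, Matrix.det_pow, Matrix.det_neg, Matrix.det_one, Fintype.card_fin] at e
    nlinarith [sq_nonneg A.det]
  obtain ⟨u, f, b, hb, -, hR, hpos, hdvd, hCu⟩ := norm_data (C := cE7) (by decide) hBC hne hrk
    qE7 qE7_eq qE7_nonneg (Adj := adjE7) (δ := 2) (by norm_num) (by decide)
  by_cases heven : ∀ i, 2 ∣ (cE7 *ᵥ u) i
  · -- `u` spans the radical modulo 2
    choose g hg using heven
    have hu : u = adjE7 *ᵥ g := by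
      have e : adjE7 *ᵥ (cE7 *ᵥ u) = (2 : ℤ) • u := by
        rw [Matrix.mulVec_mulVec, show adjE7 * cE7 = (2 : ℤ) • 1 by decide, Matrix.smul_mulVec,
          Matrix.one_mulVec]
      rw [show cE7 *ᵥ u = (2 : ℤ) • g from funext hg, Matrix.mulVec_smul] at e
      exact (smul_right_injective _ (two_ne_zero (α := ℤ)) e).symm
    have hy : ∃ k : ℤ, ∀ i, ∃ y : ℤ, u i = k * vE7 i + 2 * y := by
      refine ⟨g 1 + g 4 + g 6, fun i => ?_⟩
      have h2 : ((u i - (g 1 + g 4 + g 6) * vE7 i : ℤ) : ZMod 2) = 0 := by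
        rw [hu]
        simp [Matrix.mulVec, dotProduct, adjE7, Fin.sum_univ_seven, vE7]
        generalize (g 0 : ZMod 2) = a, (g 1 : ZMod 2) = b, (g 2 : ZMod 2) = c,
          (g 3 : ZMod 2) = d, (g 4 : ZMod 2) = e, (g 5 : ZMod 2) = h, (g 6 : ZMod 2) = w
        fin_cases i <;> simp <;> revert a b c d e h w <;> decide
      obtain ⟨y, hy⟩ := (ZMod.intCast_zmod_eq_zero_iff_dvd _ 2).mp h2
      exact ⟨y, by push_cast at hy; linarith⟩
    obtain ⟨k, hy⟩ := hy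
    choose y hy using hy
    have hk : k % 2 = 1 := by
      by_contra h
      obtain ⟨k', rfl⟩ : (2 : ℤ) ∣ k := by omega
      have h1 : (2 : ℤ) ∣ b ⬝ᵥ u := Finset.dvd_sum fun i _ =>
        dvd_mul_of_dvd_right ⟨k' * vE7 i + y i, by rw [hy]; ring⟩ _
      rw [hb] at h1
      norm_num at h1
    have hkk : (k * k) % 4 = 1 := by
      obtain ⟨t, rfl⟩ : ∃ t, k = 2 * t + 1 := ⟨k / 2, by omega⟩
      rw [show (2 * t + 1) * (2 * t + 1) = 1 + 4 * (t * t + t) by ring, Int.add_mul_emod_self_left]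
      norm_num
    have hq : qE7 u = 3 * (k * k) + 4 * (k * y 6) + 4 * qE7 y := by
      simp only [qE7, hy, show vE7 0 = 2 from rfl,
        show vE7 1 = 3 from rfl,
        show vE7 2 = 4 from rfl,
        show vE7 3 = 6 from rfl,
        show vE7 4 = 5 from rfl,
        show vE7 5 = 4 from rfl,
        show vE7 6 = 3 from rfl]
      ring
    have := Int.le_of_dvd (by norm_num) hdvd
    generalize k * k = kk at hkk hq
    generalize k * y 6 = ky at hq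
    omega
  · -- `A²` is a transvection modulo 2
    push Not at heven
    obtain ⟨j, hj⟩ := heven
    have hq1 : qE7 u = 1 := by
      have := Int.le_of_dvd (by norm_num) hdvd
      rcases (show qE7 u = 1 ∨ qE7 u = 2 by omega) with h | h
      · exact h
      · exact absurd ⟨f j, by rw [hCu, h]; rfl⟩ hj
    rw [hq1, one_smul] at hCu
    have hfj : ¬ 2 ∣ f j := hCu ▸ hj
    set x : Fin 7 → ℤ := Pi.single j 1
    have hRx : ∀ z, (B + 1) *ᵥ z = (f ⬝ᵥ z) • u := fun z => by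
      rw [hR]; funext i
      simp [Matrix.mulVec, dotProduct, Matrix.vecMulVec_apply, Finset.sum_mul]
      exact Finset.sum_congr rfl fun _ _ => by ring
    have hfx : f ⬝ᵥ x = f j := by simp [x]
    set t := f ⬝ᵥ A *ᵥ x
    have hcomm : (B + 1) * A = A * (B + 1) := by rw [hB]; noncomm_ring
    have hAu : f j • A *ᵥ u = t • u := by
      rw [← Matrix.mulVec_smul, ← hfx, ← hRx, Matrix.mulVec_mulVec, ← hcomm,
        ← Matrix.mulVec_mulVec, hRx]
    have hsym : ∀ a c : Fin 7 → ℤ, a ⬝ᵥ cE7 *ᵥ c = c ⬝ᵥ cE7 *ᵥ a := fun a c => by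
      rw [dotProduct_comm, ← Matrix.vecMul_transpose, show cE7ᵀ = cE7 by decide,
        ← Matrix.dotProduct_mulVec]
    have hinv : (B *ᵥ x) ⬝ᵥ cE7 *ᵥ (A *ᵥ x) = (A *ᵥ x) ⬝ᵥ cE7 *ᵥ x := by
      rw [hB, pow_two, ← Matrix.mulVec_mulVec]
      nth_rw 1 [← Matrix.vecMul_transpose]
      rw [← Matrix.dotProduct_mulVec, Matrix.mulVec_mulVec, Matrix.mulVec_mulVec]
      simp only [mul_assoc] at hA ⊢
      rw [hA]
    have hBx : B *ᵥ x = f j • u - x := by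
      have e := hRx x
      rw [Matrix.add_mulVec, Matrix.one_mulVec, hfx] at e
      exact eq_sub_of_add_eq e
    rw [hBx, sub_dotProduct, smul_dotProduct, hsym u, hCu, dotProduct_comm (A *ᵥ x) f,
      hsym x, smul_eq_mul] at hinv
    change f j * t - _ = _ at hinv
    have ht : 2 ∣ t := by
      have h2 : (2 : ℤ) ∣ f j * t := ⟨(A *ᵥ x) ⬝ᵥ cE7 *ᵥ x, by linarith⟩
      exact (Int.prime_two.dvd_mul.mp h2).resolve_left hfj
    have heu : ∀ i, 2 ∣ (A *ᵥ u) i := fun i => by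
      have h2 : (2 : ℤ) ∣ f j * (A *ᵥ u) i := by
        have e := congrFun hAu i
        simp only [Pi.smul_apply, smul_eq_mul] at e
        rw [e]
        exact dvd_mul_of_dvd_left ht _
      exact (Int.prime_two.dvd_mul.mp h2).resolve_left hfj
    obtain ⟨k, rfl⟩ : ∃ k, m = k + 1 := ⟨m - 1, by omega⟩
    have e : u = A ^ k *ᵥ (A *ᵥ u) := by
      rw [Matrix.mulVec_mulVec, ← pow_succ, hAm, Matrix.one_mulVec]
    have h1 : (2 : ℤ) ∣ b ⬝ᵥ u := by
      rw [e]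
      refine Finset.dvd_sum fun i _ => dvd_mul_of_dvd_right ?_ _
      rw [Matrix.mulVec, dotProduct]
      exact Finset.dvd_sum fun i' _ => dvd_mul_of_dvd_right (heu i') _
    rw [hb] at h1
    norm_num at h1

end CfsgLib.CrossCharSylow
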