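import Cfsg.Agent.CrossCharSylow.Weyl
import Cfsg.Agent.S1059
import Cfsg.Agent.S1060
import Cfsg.Agent.S1061
import Cfsg.Agent.S1062
import Cfsg.Agent.S1063
import Cfsg.Agent.S1064
import Cfsg.Agent.S1065

/-!
Orders, Weyl group orders and eigenspace bounds for the seven tabulated types.
-/

set_option autoImplicit false

open Matrix Polynomial Cfsg.Lie
open CfsgLib.Chevalley

namespace CfsgLib.CrossCharSylow

universe u

/-- The seven types with their degrees. -/
def types : List (ChevalleyDatum × List ℕ) :=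
  [(chevG2, [2, 6]), (chevB2, [2, 4]), (chevD4, [2, 4, 4, 6]), (chevF4, [2, 6, 8, 12]),
    (chevE6, [2, 5, 6, 8, 9, 12]), (chevE7, [2, 6, 8, 10, 12, 14, 18]),
    (chevE8, [2, 8, 12, 14, 18, 20, 24, 30])]

theorem order_data {c : ChevalleyDatum × List ℕ} (hc : c ∈ types) (K : Type u) [Field K]
    [Fintype K] :
    ∃ e N : ℕ, e ∣ c.2.prod ∧
      e * Nat.card ↥(c.1.group K) =
        Fintype.card K ^ N * (c.2.map fun k => Fintype.card K ^ k - 1).prod ∧
      e * Nat.card ↥(c.1.diagonalSubgroup K) = (Fintype.card K - 1) ^ c.1.rank := by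
  simp only [types, List.mem_cons, List.not_mem_nil, or_false] at hc
  rcases hc with rfl | rfl | rfl | rfl | rfl | rfl | rfl
  · exact ⟨1, 6, one_dvd _, by simp [Cfsg.Agent.S1059.result rfl, mul_assoc],
      natCardDiagonalG2 K⟩
  · refine ⟨(Fintype.card K - 1).gcd 2, 4, (Nat.gcd_dvd_right _ _).trans (by norm_num), ?_,
      natCardDiagonalB2 K⟩
    rw [Nat.gcd_comm, Cfsg.Agent.S1060.result rfl]
    simp [mul_assoc]
  · refine ⟨(Fintype.card K - 1).gcd 2 * (Fintype.card K - 1).gcd 2, 12,
      (Nat.mul_dvd_mul (Nat.gcd_dvd_right _ _) (Nat.gcd_dvd_right _ _)).trans (by norm_num), ?_,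
      natCardDiagonalD4 K⟩
    rw [Nat.gcd_comm, ← pow_two, Cfsg.Agent.S1061.result rfl]
    simp [mul_assoc]
  · exact ⟨1, 24, one_dvd _, by simp [Cfsg.Agent.S1062.result rfl, mul_assoc],
      natCardDiagonalF4 K⟩
  · refine ⟨(Fintype.card K - 1).gcd 3, 36, (Nat.gcd_dvd_right _ _).trans (by norm_num), ?_,
      natCardDiagonalE6 K⟩
    rw [Nat.gcd_comm, Cfsg.Agent.S1063.result rfl]
    simp [mul_assoc]
  · refine ⟨(Fintype.card K - 1).gcd 2, 63, (Nat.gcd_dvd_right _ _).trans (by norm_num), ?_,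
      natCardDiagonalE7 K⟩
    rw [Nat.gcd_comm, Cfsg.Agent.S1064.result rfl]
    simp [mul_assoc]
  · exact ⟨1, 120, one_dvd _, by simp [Cfsg.Agent.S1065.result rfl, mul_assoc],
      natCardDiagonalE8 K⟩

theorem length_eq {c : ChevalleyDatum × List ℕ} (hc : c ∈ types) : c.2.length = c.1.rank := by
  simp only [types, List.mem_cons, List.not_mem_nil, or_false] at hc
  rcases hc with rfl | rfl | rfl | rfl | rfl | rfl | rfl <;> rfl

theorem degs_pos {c : ChevalleyDatum × List ℕ} (hc : c ∈ types) : ∀ k ∈ c.2, 0 < k := by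
  simp only [types, List.mem_cons, List.not_mem_nil, or_false] at hc
  rcases hc with rfl | rfl | rfl | rfl | rfl | rfl | rfl <;> decide

/-- The multiplicity of the eigenvalue `q` of a Weyl group element is at most the number of
degrees divisible by the order of `q`. -/
def EigenBound (D : ChevalleyDatum) (degs : List ℕ) : Prop :=
  ∀ (r : ℕ) [Fact r.Prime] (a : ZMod r) (d : ℕ), ¬ r ∣ degs.prod → IsPrimitiveRoot a d →
    (∃ k ∈ degs, d ∣ k) → ∀ L : List (Fin D.rank),
      Module.finrank (ZMod r) (Module.End.eigenspace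
        (Matrix.toLin' ((wordMat' D L).map (Int.cast : ℤ → ZMod r))ᵀ) a) ≤
      (degs.filter fun k => d ∣ k).length

theorem bound_of {D : ChevalleyDatum} {degs : List ℕ} (S : Sys D)
    (hW : S.lenSum (List.range D.rank) 1 = (degs.prod : ℤ)) (hpos : ∀ k ∈ degs, 0 < k)
    (exc : List ℕ)
    (hnum : ∀ d ∈ List.range 31, (∃ k ∈ degs, d ∣ k) → d ∉ exc →
      D.rank < d.totient * ((degs.filter fun k => d ∣ k).length + 1))
    (hsmall : ∀ k ∈ degs, k ≤ 30)
    (hexc : ∀ L : List (Fin D.rank), ∀ d ∈ exc, ∀ (m s : ℕ) (P' : ℤ[X]), 0 < m →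
      wordMat' D L ^ m = 1 → d ∣ m → P'.Monic →
      (wordMat' D L).charpoly = cyclotomic d ℤ ^ s * P' → ¬ cyclotomic d ℤ ∣ P' →
      (degs.filter fun k => d ∣ k).length < s → False) :
    EigenBound D degs := by
  intro r _ a d hr ha hd L
  obtain ⟨k, hk, hdk⟩ := hd
  have hd0 : 0 < d := Nat.pos_of_dvd_of_pos hdk (hpos k hk)
  set f := Module.finrank (ZMod r) (Module.End.eigenspace
      (Matrix.toLin' ((wordMat' D L).map (Int.cast : ℤ → ZMod r))ᵀ) a) with hf
  by_cases hf0 : f = 0
  · omega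
  have hm : orderOf (S.wperm L) ∣ degs.prod := by
    have := orderOf_wperm_dvd S L
    rw [hW] at this
    exact_mod_cast this
  have hA := wordMat'_pow_orderOf S L
  have hm0 : 0 < orderOf (S.wperm L) := orderOf_pos _
  obtain ⟨s, P', hP', hsplit, hnd, hdm, hle⟩ := eigen_le hA (fun h => hr (h.trans hm)) ha hd0 hf0
  by_contra hcon
  push Not at hcon
  have hs : (degs.filter fun k => d ∣ k).length < s := lt_of_lt_of_le hcon hle
  by_cases hex : d ∈ exc
  · exact hexc L d hex _ s P' hm0 hA hdm hP' hsplit hnd hs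
  · have hd31 : d ∈ List.range 31 := List.mem_range.mpr (by
      have := Nat.le_of_dvd (hpos k hk) hdk
      have := hsmall k hk
      omega)
    have h1 := hnum d hd31 ⟨k, hk, hdk⟩ hex
    have h2 := natDegree_split hP' hsplit
    have h3 : d.totient * ((degs.filter fun k => d ∣ k).length + 1) ≤ s * d.totient := by
      rw [mul_comm s]; exact Nat.mul_le_mul le_rfl hs
    omega

theorem cartanMat_E6 : cartanMat chevE6 = cE6 := by
  ext i j
  fin_cases i <;> fin_cases j <;> decide +kernel

theorem cartanMat_E7 : cartanMat chevE7 = cE7 := by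
  ext i j
  fin_cases i <;> fin_cases j <;> decide +kernel

theorem cartanMat_E6_symm : (cartanMat chevE6).IsSymm :=
  Matrix.IsSymm.ext fun i j =>
    (by decide +kernel : ∀ i j : Fin 6,
      chevE6.cartan (j : ℕ) (chevE6.simple (i : ℕ)) = chevE6.cartan (i : ℕ) (chevE6.simple (j : ℕ))) i j

theorem cartanMat_E7_symm : (cartanMat chevE7).IsSymm :=
  Matrix.IsSymm.ext fun i j =>
    (by decide +kernel : ∀ i j : Fin 7,
      chevE7.cartan (j : ℕ) (chevE7.simple (i : ℕ)) = chevE7.cartan (i : ℕ) (chevE7.simple (j : ℕ))) i j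

theorem cartanMat_E6_diag : ∀ i, cartanMat chevE6 i i = 2 := by decide +kernel
theorem cartanMat_E7_diag : ∀ i, cartanMat chevE7 i i = 2 := by decide +kernel

theorem lenSum_one_G2 : sysG2.lenSum (List.range 2) 1 = 12 := by
  rw [lenSumG2 ℚ 1]; decide +kernel
theorem lenSum_one_B2 : sysB2.lenSum (List.range 2) 1 = 8 := by
  rw [lenSumB2 ℚ 1]; decide +kernel
theorem lenSum_one_D4 : sysD4.lenSum (List.range 4) 1 = 192 := by
  rw [lenSumD4 ℚ 1]; decide +kernel
theorem lenSum_one_F4 : sysF4.lenSum (List.range 4) 1 = 1152 := by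
  rw [lenSumF4 ℚ 1]; decide +kernel
theorem lenSum_one_E6 : sysE6.lenSum (List.range 6) 1 = 51840 := by
  rw [lenSumE6 ℚ 1]; decide +kernel
theorem lenSum_one_E7 : sysE7.lenSum (List.range 7) 1 = 2903040 := by
  rw [lenSumE7 ℚ 1]; decide +kernel
theorem lenSum_one_E8 : sysE8.lenSum (List.range 8) 1 = 696729600 := by
  rw [lenSumE8 ℚ 1]; decide +kernel

theorem eigenBound_G2 : EigenBound chevG2 [2, 6] :=
  bound_of sysG2 (lenSum_one_G2.trans (by decide)) (by decide) [] (by decide +kernel) (by decide)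
    (fun _ _ h => absurd h List.not_mem_nil)

theorem eigenBound_B2 : EigenBound chevB2 [2, 4] :=
  bound_of sysB2 (lenSum_one_B2.trans (by decide)) (by decide) [] (by decide +kernel) (by decide)
    (fun _ _ h => absurd h List.not_mem_nil)

theorem eigenBound_F4 : EigenBound chevF4 [2, 6, 8, 12] :=
  bound_of sysF4 (lenSum_one_F4.trans (by decide)) (by decide) [] (by decide +kernel) (by decide)
    (fun _ _ h => absurd h List.not_mem_nil)

theorem eigenBound_E8 : EigenBound chevE8 [2, 8, 12, 14, 18, 20, 24, 30] :=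
  bound_of sysE8 (lenSum_one_E8.trans (by decide)) (by decide) [] (by decide +kernel) (by decide)
    (fun _ _ h => absurd h List.not_mem_nil)

theorem totient_vals :
    Nat.totient 2 = 1 ∧ Nat.totient 3 = 2 ∧ Nat.totient 4 = 2 ∧ Nat.totient 6 = 2 := by
  decide +kernel

theorem eval_one_six : (cyclotomic 6 ℤ).eval 1 = 1 :=
  eval_one_cyclotomic_not_prime_pow fun {p} hp k h => by
    have h2 : 2 ∣ p := Nat.prime_two.dvd_of_dvd_pow (h ▸ (by norm_num : (2 : ℕ) ∣ 6))
    have h3 : 3 ∣ p := Nat.prime_three.dvd_of_dvd_pow (h ▸ (by norm_num : (3 : ℕ) ∣ 6))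
    have e2 := (Nat.prime_dvd_prime_iff_eq Nat.prime_two hp).mp h2
    have e3 := (Nat.prime_dvd_prime_iff_eq Nat.prime_three hp).mp h3
    omega

theorem eigenBound_D4 : EigenBound chevD4 [2, 4, 4, 6] := by
  refine bound_of sysD4 (lenSum_one_D4.trans (by decide)) (by decide) [3, 6] (by decide +kernel)
    (by decide) fun L d hd m s P' hm hA hdm hP' hsplit hnd hs => ?_
  obtain ⟨h2, h3, h4, h6⟩ := totient_vals
  have hdeg := natDegree_split hP' hsplit
  have hfix := wordMat'_fixed (D := chevD4) (p := 2) (v := ![0, 0, 1, 1]) (by decide +kernel) L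
  have hv0 : (fun i => ((![0, 0, 1, 1] : Fin 4 → ℤ) i : ZMod 2)) ≠ 0 := by decide
  have hr : chevD4.rank = 4 := rfl
  rcases List.mem_cons.mp hd with rfl | hd
  · have hs2 : ([2, 4, 4, 6].filter fun k => (3 : ℕ) ∣ k).length = 1 := by decide
    rw [hs2] at hs
    refine false_of_fixed hv0 hfix (P := cyclotomic 3 ℤ) ?_
      (aeval_eq_zero_of_full hA hm hdm hP' hsplit (by simp only [h2, h3, h4, h6] at hdeg ⊢; omega))
    simp [cyclotomic_three]; decide
  · obtain rfl := List.mem_singleton.mp hd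
    have hs2 : ([2, 4, 4, 6].filter fun k => (6 : ℕ) ∣ k).length = 1 := by decide
    rw [hs2] at hs
    refine false_of_fixed hv0 hfix (P := cyclotomic 6 ℤ) ?_
      (aeval_eq_zero_of_full hA hm hdm hP' hsplit (by simp only [h2, h3, h4, h6] at hdeg ⊢; omega))
    rw [eval_one_six]; decide

theorem eigenBound_E6 : EigenBound chevE6 [2, 5, 6, 8, 9, 12] := by
  refine bound_of sysE6 (lenSum_one_E6.trans (by decide)) (by decide) [2, 4, 6]
    (by decide +kernel) (by decide) fun L d hd m s P' hm hA hdm hP' hsplit hnd hs => ?_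
  obtain ⟨h2, h3, h4, h6⟩ := totient_vals
  have hdeg := natDegree_split hP' hsplit
  have hr : chevE6.rank = 6 := rfl
  have hfix := wordMat'_fixed (D := chevE6) (p := 3) (v := vE6) (by decide +kernel) L
  have hv0 : (fun i => (vE6 i : ZMod 3)) ≠ 0 := by decide
  rcases List.mem_cons.mp hd with rfl | hd
  · have hs2 : ([2, 5, 6, 8, 9, 12].filter fun k => (2 : ℕ) ∣ k).length = 4 := by decide
    rw [hs2] at hs
    rcases (show s * Nat.totient 2 + 1 = chevE6.rank ∨ s * Nat.totient 2 = chevE6.rank by simp only [h2] at hdeg ⊢; omega)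
      with h | h
    · have hrk := rank_aeval_le_one hA hm hdm hP' hsplit hnd h
      have hiso := wordMat'_isometry (D := chevE6) cartanMat_E6_symm cartanMat_E6_diag L
      rw [cartanMat_E6] at hiso
      rw [cyclotomic_two, map_add, aeval_X, map_one] at hrk
      exact e6_false hiso hfix hrk
    · refine false_of_fixed hv0 hfix (P := cyclotomic 2 ℤ) ?_
        (aeval_eq_zero_of_full hA hm hdm hP' hsplit h)
      simp [cyclotomic_two]; decide
  rcases List.mem_cons.mp hd with rfl | hd
  · have hs2 : ([2, 5, 6, 8, 9, 12].filter fun k => (4 : ℕ) ∣ k).length = 2 := by decide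
    rw [hs2] at hs
    refine false_of_fixed hv0 hfix (P := cyclotomic 4 ℤ) ?_
      (aeval_eq_zero_of_full hA hm hdm hP' hsplit (by simp only [h2, h3, h4, h6] at hdeg ⊢; omega))
    simp [cyclotomic_four]; decide
  · obtain rfl := List.mem_singleton.mp hd
    have hs2 : ([2, 5, 6, 8, 9, 12].filter fun k => (6 : ℕ) ∣ k).length = 2 := by decide
    rw [hs2] at hs
    refine false_of_fixed hv0 hfix (P := cyclotomic 6 ℤ) ?_
      (aeval_eq_zero_of_full hA hm hdm hP' hsplit (by simp only [h2, h3, h4, h6] at hdeg ⊢; omega))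
    rw [eval_one_six]; decide

theorem eigenBound_E7 : EigenBound chevE7 [2, 6, 8, 10, 12, 14, 18] := by
  refine bound_of sysE7 (lenSum_one_E7.trans (by decide)) (by decide) [4]
    (by decide +kernel) (by decide) fun L d hd m s P' hm hA hdm hP' hsplit hnd hs => ?_
  obtain rfl := List.mem_singleton.mp hd
  obtain ⟨h2, h3, h4, h6⟩ := totient_vals
  have hdeg := natDegree_split hP' hsplit
  have hr : chevE7.rank = 7 := rfl
  have hs2 : ([2, 6, 8, 10, 12, 14, 18].filter fun k => (4 : ℕ) ∣ k).length = 2 := by decide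
  rw [hs2] at hs
  have hrk := rank_aeval_le_one hA hm hdm hP' hsplit hnd
    (by simp only [h4] at hdeg ⊢; omega)
  have hiso := wordMat'_isometry (D := chevE7) cartanMat_E7_symm cartanMat_E7_diag L
  rw [cartanMat_E7] at hiso
  rw [cyclotomic_four, map_add, map_pow, aeval_X, map_one] at hrk
  exact e7_false hm hA hiso hrk

theorem eigenBound {c : ChevalleyDatum × List ℕ} (hc : c ∈ types) : EigenBound c.1 c.2 := by
  simp only [types, List.mem_cons, List.not_mem_nil, or_false] at hc
  rcases hc with rfl | rfl | rfl | rfl | rfl | rfl | rfl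
  exacts [eigenBound_G2, eigenBound_B2, eigenBound_D4, eigenBound_F4, eigenBound_E6, eigenBound_E7,
    eigenBound_E8]

end CfsgLib.CrossCharSylow
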