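import Cfsg.Agent.CrossCharSylow.Torus
import Cfsg.Agent.CrossCharSylow.Types
import Cfsg.Agent.CrossCharSylow.Homocyclic
import Cfsg.Agent.Zsigmondy.Valuation
import Cfsg.Agent.Chevalley.All

/-!
Sylow subgroups of Chevalley groups for primes prime to `q` and to the order of the Weyl group.
-/

set_option autoImplicit false

open Cfsg.Lie Matrix
open CfsgLib.Chevalley

namespace CfsgLib.CrossCharSylow

universe u

theorem padicValNat_listProd {r : ℕ} [Fact r.Prime] (l : List ℕ) (h : ∀ x ∈ l, x ≠ 0) :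
    padicValNat r l.prod = (l.map (padicValNat r)).sum := by
  induction l with
  | nil => simp
  | cons x l ih =>
    rw [List.forall_mem_cons] at h
    rw [List.prod_cons, padicValNat.mul h.1 (List.prod_ne_zero fun h0 => h.2 0 h0 rfl),
      List.map_cons, List.sum_cons, ih h.2]

theorem sum_map_ite {α : Type*} (l : List α) (P : α → Prop) [DecidablePred P] (M : ℕ) :
    (l.map fun x => if P x then M else 0).sum = (l.filter fun x => P x).length * M := by
  induction l with
  | nil => simp
  | cons x l ih =>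
    rw [List.map_cons, List.sum_cons, ih]
    by_cases hx : P x <;> simp [hx, add_mul, add_comm]

/-- The `r`-parts of the orders of `G` and of its torus. -/
theorem valuations {c : ChevalleyDatum × List ℕ} (hc : c ∈ types) (K : Type u) [Field K]
    [Fintype K] {r : ℕ} [Fact r.Prime] (hrK : ¬ r ∣ Fintype.card K) (hrW : ¬ r ∣ c.2.prod) :
    padicValNat r (Nat.card ↥(c.1.group K)) =
        (c.2.map fun k => padicValNat r (Fintype.card K ^ k - 1)).sum ∧
      padicValNat r (Nat.card ↥(c.1.diagonalSubgroup K)) =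
        c.1.rank * padicValNat r (Fintype.card K - 1) := by
  obtain ⟨e, N, he, hG, hT⟩ := order_data hc K
  have hre : padicValNat r e = 0 := padicValNat.eq_zero_of_not_dvd fun h => hrW (h.trans he)
  have he0 : e ≠ 0 := fun h => hrW (dvd_trans (dvd_zero r) (h ▸ he))
  have hq : 2 ≤ Fintype.card K := Fintype.one_lt_card
  have hne : ∀ x ∈ c.2.map fun k => Fintype.card K ^ k - 1, x ≠ 0 := by
    intro x hx
    obtain ⟨k, hk, rfl⟩ := List.mem_map.mp hx
    exact Zsigmondy.pow_sub_one_ne_zero hq (degs_pos hc k hk)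
  constructor
  · have h := congrArg (padicValNat r) hG
    rw [padicValNat.mul he0 Nat.card_pos.ne', hre, zero_add,
      padicValNat.mul (pow_ne_zero _ (by omega)) (List.prod_ne_zero fun h0 => hne 0 h0 rfl),
      padicValNat.eq_zero_of_not_dvd fun h => hrK ((Fact.out : r.Prime).dvd_of_dvd_pow h), zero_add,
      padicValNat_listProd _ hne, List.map_map] at h
    exact h
  · have h := congrArg (padicValNat r) hT
    rw [padicValNat.mul he0 Nat.card_pos.ne', hre, zero_add,
      padicValNat.pow] at h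
    exact h

theorem sylow_homocyclic {F : Type u} [Field F] [Fintype F] {q : ℕ} (hq : Fintype.card F = q)
    {c : ChevalleyDatum × List ℕ} (hc : c ∈ types) {r : ℕ} [hr : Fact r.Prime] (hrq : ¬ r ∣ q)
    (hrW : ¬ r ∣ c.2.prod) (hrG : r ∣ Nat.card ↥(c.1.group F)) (P : Sylow r ↥(c.1.group F)) :
    Nonempty (↥(P : Subgroup ↥(c.1.group F)) ≃*
      (Fin (c.2.filter fun e => orderOf (q : ZMod r) ∣ e).length →
        Multiplicative (ZMod (r ^ padicValNat r
          (Zsigmondy.cyc q (orderOf (q : ZMod r))))))) := by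
  set d := orderOf (q : ZMod r) with hd
  set M := padicValNat r (Zsigmondy.cyc q d) with hM
  set a := (c.2.filter fun e => d ∣ e).length with ha
  have hq2 : 2 ≤ q := hq ▸ Fintype.one_lt_card
  have hd0 : 0 < d := Zsigmondy.orderOf_pos_of_not_dvd hrq
  obtain ⟨S⟩ := sys_of_mem (D := c.1) (by
    simp only [types, List.mem_cons, List.not_mem_nil, or_false] at hc
    rcases hc with rfl | rfl | rfl | rfl | rfl | rfl | rfl <;> simp)
  have hrk : ∀ k ∈ c.2, ¬ r ∣ k := fun k hk h => hrW (h.trans (List.dvd_prod hk))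
  have hMd : padicValNat r (q ^ d - 1) = M := Zsigmondy.padicValNat_pow_orderOf_sub_one hq2 hrq
  have hM0 : 0 < M := by
    rw [← hMd]
    refine one_le_padicValNat_of_dvd (Zsigmondy.pow_sub_one_ne_zero hq2 hd0) ?_
    exact (Zsigmondy.dvd_pow_sub_one_iff (by omega) d).mpr dvd_rfl
  -- the order of `G(F)`
  have hvF : padicValNat r (Nat.card ↥(c.1.group F)) = a * M := by
    rw [(valuations hc F (hq ▸ hrq) hrW).1, hq, ha, ← sum_map_ite]
    refine congrArg List.sum (List.map_congr_left fun k hk => ?_)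
    by_cases hdk : d ∣ k
    · obtain ⟨m, rfl⟩ := hdk
      rw [if_pos (dvd_mul_right d m)]
      exact Zsigmondy.padicValNat_pow_mul_sub_one hq2 hrq
        fun h => hrk _ hk (Dvd.dvd.mul_left h d)
    · rw [if_neg hdk]
      exact Zsigmondy.padicValNat_pow_sub_one_eq_zero (by omega) hdk
  have hex : ∃ k ∈ c.2, d ∣ k := by
    have h1 : 0 < padicValNat r (Nat.card ↥(c.1.group F)) :=
      one_le_padicValNat_of_dvd Nat.card_pos.ne' hrG
    rw [hvF] at h1
    obtain ⟨k, hk⟩ := List.exists_mem_of_length_pos (Nat.pos_of_mul_pos_right h1)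
    rw [List.mem_filter, decide_eq_true_eq] at hk
    exact ⟨k, hk.1, hk.2⟩
  -- the extension field
  obtain ⟨p, hp⟩ := CharP.exists F
  have : Fact p.Prime := ⟨CharP.char_is_prime F p⟩
  have : NeZero d := ⟨hd0.ne'⟩
  let K := FiniteField.Extension F p d
  let _ : Fintype K := Fintype.ofFinite K
  have hQ : Fintype.card K = q ^ d := by
    rw [Fintype.card_eq_nat_card, FiniteField.natCard_extension, Nat.card_eq_fintype_card, hq]
  have hvK := valuations hc K (r := r) (fun h => hrq (hr.out.dvd_of_dvd_pow (hQ ▸ h))) hrW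
  have hval : padicValNat r (Nat.card ↥(c.1.group K)) =
      padicValNat r (Nat.card ↥(c.1.diagonalSubgroup K)) := by
    rw [hvK.1, hvK.2, hQ, hMd, ← length_eq hc]
    rw [List.map_congr_left (g := fun _ => M) fun k hk => by
      rw [← pow_mul]; exact Zsigmondy.padicValNat_pow_mul_sub_one hq2 hrq (hrk k hk)]
    simp
  obtain ⟨θ, n, hθ, hθn⟩ := exists_torus_embedding S K (algebraMap F K)
    ((FiniteField.Extension.frob F p d).toAlgHom.toRingHom) (q := q)
    (fun x => (FiniteField.Extension.frob F p d).commutes x)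
    (fun x => by
      show FiniteField.Extension.frob F p d x = _
      rw [FiniteField.Extension.frob_apply, Nat.card_eq_fintype_card, hq])
    hval (P : Subgroup ↥(c.1.group F)) P.2
  have hP : Nat.card ↥(P : Subgroup ↥(c.1.group F)) = r ^ (a * M) := by
    rw [P.card_eq_multiplicity, Nat.factorization_def _ hr.out, hvF]
  have hK : r ∣ Nat.card Kˣ := by
    rw [Nat.card_units, Nat.card_eq_fintype_card, hQ]
    exact (Zsigmondy.dvd_pow_sub_one_iff (by omega) d).mpr dvd_rfl
  refine homocyclic_of_bounds (fun x y => hθ ?_) (fun x => ?_) hP hM0 ?_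
  · rw [map_mul, map_mul]
    exact S.diagonal_comm K (hθn x).1 (hθn y).1
  · have h1 : orderOf x ∣ Nat.card Kˣ := by
      rw [orderOf_dvd_iff_pow_eq_one]
      apply hθ
      obtain ⟨e, he⟩ := (S.diagonal_eq K ▸ (hθn x).1 : θ x ∈ (tor c.1 K).range)
      rw [map_pow, map_one, ← he, ← map_pow,
        show e ^ Nat.card Kˣ = 1 from funext fun j => pow_card_eq_one', map_one]
    obtain ⟨i, hi, he⟩ := (Nat.dvd_prime_pow hr.out).mp (hP ▸ orderOf_dvd_natCard x)
    rw [← orderOf_dvd_iff_pow_eq_one, he]
    refine pow_dvd_pow r ?_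
    rw [he, Nat.card_units, Nat.card_eq_fintype_card, hQ] at h1
    have h2 := (padicValNat_dvd_iff_le (Zsigmondy.pow_sub_one_ne_zero hq2 hd0)).mp h1
    rwa [hMd] at h2
  · obtain ⟨L, hL⟩ := card_torsion_le S K hK n θ hθ hθn
    exact hL.trans (Nat.pow_le_pow_right hr.out.pos
      (eigenBound hc r (q : ZMod r) d hrW (IsPrimitiveRoot.orderOf _) hex L))

end CfsgLib.CrossCharSylow
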