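import Cfsg.Agent.CrossCharSylow.LatticeTypes
import Cfsg.Agent.Chevalley.Order

/-!
The integer matrices of the Weyl group on fundamental coordinates, and the bound on their
eigenspaces modulo a prime.
-/

set_option autoImplicit false

open Matrix Cfsg.Lie
open CfsgLib.Chevalley (Sys cartanMat)

namespace CfsgLib.CrossCharSylow

variable {D : ChevalleyDatum} (S : Sys D)

/-- The matrix of a fundamental reflection. -/
def reflMat (D : ChevalleyDatum) (i : Fin D.rank) : Matrix (Fin D.rank) (Fin D.rank) ℤ :=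
  1 - vecMulVec (Pi.single i 1) (cartanMat D i)

/-- The matrix of a word. -/
def wordMat' (D : ChevalleyDatum) (L : List (Fin D.rank)) : Matrix (Fin D.rank) (Fin D.rank) ℤ :=
  (L.map (reflMat D)).prod

/-- The coordinate vector of a root. -/
def vecF (s : Fin D.nroots) : Fin D.rank → ℤ := fun j => S.vec j s

theorem vecF_srefl (i : Fin D.rank) (s : Fin D.nroots) :
    vecF S (S.srefl i s) = reflMat D i *ᵥ vecF S s := by
  funext j
  have hc : (vecMulVec (Pi.single i (1 : ℤ)) (cartanMat D i) *ᵥ vecF S s) j =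
      if (j : ℕ) = (i : ℕ) then D.cartan i s else 0 := by
    have hs : (cartanMat D i) ⬝ᵥ vecF S s = D.cartan i s := by
      rw [S.cartan_vec i i.isLt s s.isLt, ← List.sum_toFinset _ List.nodup_range,
        List.toFinset_range, Finset.sum_range]
      exact Finset.sum_congr rfl fun m _ => by simp [cartanMat, vecF, mul_comm]
    rw [Matrix.vecMulVec_mulVec, hs]
    by_cases hji : j = i
    · subst hji; simp
    · rw [if_neg fun e => hji (Fin.ext e)]; simp [hji]
  rw [reflMat, Matrix.sub_mulVec, Matrix.one_mulVec, Pi.sub_apply, hc]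
  exact S.vec_w i i.isLt s s.isLt j j.isLt

theorem vecF_wperm (L : List (Fin D.rank)) (s : Fin D.nroots) :
    vecF S (S.wperm L s) = wordMat' D L *ᵥ vecF S s := by
  induction L with
  | nil => simp [wordMat', Sys.wperm]
  | cons i L ih =>
    rw [S.wperm_cons, Equiv.Perm.mul_apply, vecF_srefl, ih, Matrix.mulVec_mulVec]
    simp [wordMat']

theorem vecF_simple (m : Fin D.rank) : vecF S (S.simpleF m) = Pi.single m 1 := by
  funext j
  show S.vec j (D.simple m) = _
  rw [S.vec_simple m m.isLt j j.isLt]
  by_cases h : j = m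
  · subst h; simp
  · rw [if_neg fun e => h (Fin.ext e), Pi.single_eq_of_ne h]

theorem wordMat'_apply (L : List (Fin D.rank)) (j m : Fin D.rank) :
    wordMat' D L j m = S.vec j (S.wperm L (S.simpleF m)) := by
  have h := congrFun (vecF_wperm S L (S.simpleF m)) j
  rw [vecF_simple, Matrix.mulVec_single_one] at h
  exact h.symm

theorem wordMat'_append (A B : List (Fin D.rank)) :
    wordMat' D (A ++ B) = wordMat' D A * wordMat' D B := by simp [wordMat']

include S in
theorem wordMat'_eq {L M : List (Fin D.rank)} (h : S.wperm L = S.wperm M) :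
    wordMat' D L = wordMat' D M := by
  ext j m
  rw [wordMat'_apply S, wordMat'_apply S, h]

include S in
theorem wordMat'_pow_orderOf (L : List (Fin D.rank)) :
    wordMat' D L ^ orderOf (S.wperm L) = 1 := by
  set k := orderOf (S.wperm L)
  have h1 : ∀ n, wordMat' D (List.replicate n L).flatten = wordMat' D L ^ n ∧
      S.wperm (List.replicate n L).flatten = S.wperm L ^ n := by
    intro n
    induction n with
    | zero => simp [wordMat', Sys.wperm]
    | succ n ih =>
      rw [List.replicate_succ, List.flatten_cons, wordMat'_append, S.wperm_append, ih.1, ih.2,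
        pow_succ', pow_succ']
      exact ⟨rfl, rfl⟩
  rw [← (h1 k).1, wordMat'_eq S (M := []) ((h1 k).2.trans (by
    rw [pow_orderOf_eq_one]; simp [Sys.wperm]))]
  simp [wordMat']

/-- The Weyl group as a subgroup. -/
noncomputable def weylGroup : Subgroup (Equiv.Perm (Fin D.nroots)) where
  carrier := S.wSet (List.range D.rank)
  one_mem' := S.mem_wSet_range.mpr ⟨[], by simp [Sys.wperm]⟩
  mul_mem' := by
    intro a b ha hb
    obtain ⟨L, rfl⟩ := S.mem_wSet_range.mp ha
    obtain ⟨M, rfl⟩ := S.mem_wSet_range.mp hb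
    exact S.mem_wSet_range.mpr ⟨L ++ M, (S.wperm_append L M).symm⟩
  inv_mem' := by
    intro a ha
    obtain ⟨L, rfl⟩ := S.mem_wSet_range.mp ha
    exact S.mem_wSet_range.mpr ⟨L.reverse, (S.wperm_reverse L).symm⟩

theorem orderOf_wperm_dvd (L : List (Fin D.rank)) :
    ((orderOf (S.wperm L) : ℕ) : ℤ) ∣ S.lenSum (List.range D.rank) 1 := by
  have hmem : S.wperm L ∈ weylGroup S := S.mem_wSet_range.mpr ⟨L, rfl⟩
  have h := orderOf_dvd_natCard (⟨_, hmem⟩ : ↥(weylGroup S))
  rw [Subgroup.orderOf_mk] at h
  have hc : Nat.card ↥(weylGroup S) = (S.wSet (List.range D.rank)).card := by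
    rw [← Nat.card_eq_finsetCard]
    rfl
  rw [hc] at h
  have e : S.lenSum (List.range D.rank) 1 = ((S.wSet (List.range D.rank)).card : ℤ) := by
    simp [Sys.lenSum]
  rw [e]
  exact_mod_cast h

theorem wordMat'_fixed {p : ℕ} {v : Fin D.rank → ℤ}
    (hv : (fun i => ((cartanMat D *ᵥ v) i : ZMod p)) = 0) (L : List (Fin D.rank)) :
    ((wordMat' D L).map (Int.cast : ℤ → ZMod p)) *ᵥ (fun i => (v i : ZMod p)) =
      fun i => (v i : ZMod p) := by
  induction L with
  | nil => simp [wordMat']
  | cons i L ih =>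
    have e : wordMat' D (i :: L) = reflMat D i * wordMat' D L := by simp [wordMat']
    rw [e, show (reflMat D i * wordMat' D L).map (Int.cast : ℤ → ZMod p)
        = (Int.castRingHom (ZMod p)).mapMatrix (reflMat D i * wordMat' D L) from rfl, map_mul,
      ← Matrix.mulVec_mulVec]
    refine (congrArg _ ih).trans ?_
    funext j
    show ((reflMat D i).map (Int.cast : ℤ → ZMod p) *ᵥ (fun i => (v i : ZMod p))) j = _
    have e2 : ((reflMat D i).map (Int.cast : ℤ → ZMod p) *ᵥ fun i => (v i : ZMod p)) j
        = (((reflMat D i *ᵥ v) j : ℤ) : ZMod p) :=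
      (RingHom.map_mulVec (Int.castRingHom (ZMod p)) _ _ j).symm
    rw [e2, reflMat, Matrix.sub_mulVec, Matrix.one_mulVec, Matrix.vecMulVec_mulVec]
    have h0 := congrFun hv i
    simp only [Pi.zero_apply] at h0
    have h1 : cartanMat D i ⬝ᵥ v = (cartanMat D *ᵥ v) i := rfl
    simp [h1, h0]

theorem reflMat_isometry (hsymm : (cartanMat D).IsSymm) (hdiag : ∀ i, cartanMat D i i = 2)
    (i : Fin D.rank) : (reflMat D i)ᵀ * cartanMat D * reflMat D i = cartanMat D := by
  set C := cartanMat D
  have h1 : C *ᵥ Pi.single i (1 : ℤ) = C i := by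
    funext j
    rw [Matrix.mulVec_single_one]
    exact hsymm.apply i j
  have h2 : Pi.single i (1 : ℤ) ᵥ* C = C i := by rw [Matrix.single_one_vecMul]; rfl
  rw [reflMat, Matrix.transpose_sub, Matrix.transpose_one, Matrix.transpose_vecMulVec]
  simp only [sub_mul, mul_sub, one_mul, mul_one, Matrix.vecMulVec_mul, Matrix.mul_vecMulVec, h2,
    Matrix.vecMulVec_mulVec, h1]
  ext a b
  simp [Matrix.vecMulVec_apply, hdiag]
  ring

theorem wordMat'_isometry (hsymm : (cartanMat D).IsSymm) (hdiag : ∀ i, cartanMat D i i = 2)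
    (L : List (Fin D.rank)) : (wordMat' D L)ᵀ * cartanMat D * wordMat' D L = cartanMat D := by
  induction L with
  | nil => simp [wordMat']
  | cons i L ih =>
    have e : wordMat' D (i :: L) = reflMat D i * wordMat' D L := by simp [wordMat']
    rw [e, Matrix.transpose_mul]
    calc (wordMat' D L)ᵀ * (reflMat D i)ᵀ * cartanMat D * (reflMat D i * wordMat' D L)
        = (wordMat' D L)ᵀ * ((reflMat D i)ᵀ * cartanMat D * reflMat D i) * wordMat' D L := by
          simp only [mul_assoc]
      _ = _ := by rw [reflMat_isometry hsymm hdiag, ih]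

end CfsgLib.CrossCharSylow
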