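import Cfsg.Agent.Chevalley.Order
import Cfsg.Agent.Chevalley.Parabolic
import Cfsg.Agent.ChevField.Map
import Cfsg.Agent.CrossCharSylow.Weyl

/-!
An `r`-subgroup of `G(F)` is conjugate in `G(K)` into the torus, where a Weyl group element acts
on it as the `q`-th power, provided the torus of `G(K)` contains a Sylow `r`-subgroup.
-/

set_option autoImplicit false

open Cfsg.Lie Matrix
open CfsgLib.Chevalley

namespace CfsgLib.CrossCharSylow

variable {D : ChevalleyDatum} (S : Sys D) (K : Type*) [Field K]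

include S in
theorem torusVal_eq_prod_simple (c : ℕ → Kˣ) {s : ℕ} (hs : s < D.nroots) :
    torusVal D c s =
      ∏ m ∈ Finset.range D.rank, torusVal D c (D.simple m) ^ S.vec m s := by
  simp only [torusVal, ← Finset.prod_zpow]
  rw [Finset.prod_comm]
  refine Finset.prod_congr rfl fun j hj => ?_
  rw [S.cartan_vec j (Finset.mem_range.mp hj) s hs, ← List.sum_toFinset _ List.nodup_range,
    List.toFinset_range, prod_zpow_sum]
  exact Finset.prod_congr rfl fun m _ => by rw [mul_comm, _root_.zpow_mul]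

include S in
theorem tor_ext {c c' : ℕ → Kˣ}
    (h : ∀ m < D.rank, torusVal D c (D.simple m) = torusVal D c' (D.simple m)) :
    tor D K c = tor D K c' := by
  apply Units.ext
  rw [S.tor_val, S.tor_val]
  refine dg_congr fun s hs => congrArg Units.val ?_
  rw [torusVal_eq_prod_simple S K c hs, torusVal_eq_prod_simple S K c' hs]
  exact Finset.prod_congr rfl fun m hm => by rw [h m (Finset.mem_range.mp hm)]

include S in
theorem xG_inj {s : ℕ} (hs : s < D.nroots) {u w : K} (h : S.xG K s u = S.xG K s w) : u = w := by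
  refine sub_eq_zero.mp ((S.xG_eq_one_iff K hs _).mp ?_)
  rw [sub_eq_add_neg, ← S.xG_add, h, ← S.xG_inv, mul_inv_cancel]

include S in
/-- If `n t^q n⁻¹ = t` then the root values satisfy `χ(w s) = χ(s)^q`. -/
theorem torusVal_perm (n : ↥(D.monomialSubgroup K)) (c : ℕ → Kˣ) (q : ℕ)
    (h : (n : GL D.Idx K) * tor D K c ^ q * (n : GL D.Idx K)⁻¹ = tor D K c) (s : Fin D.nroots) :
    torusVal D c (S.perm K n s) = torusVal D c s ^ q := by
  obtain ⟨e, he, hct⟩ := S.conj_root K n s
  have hq : torusVal D (c ^ q) s = torusVal D c s ^ q := by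
    simp only [torusVal, Pi.pow_apply, ← Finset.prod_pow]
    refine Finset.prod_congr rfl fun j _ => ?_
    rw [← zpow_natCast (c j) q, ← zpow_natCast (c j ^ D.cartan j s) q, ← _root_.zpow_mul, ← _root_.zpow_mul,
      mul_comm]
  have h1 : tor D K c * ((n : GL D.Idx K) * S.xG K s 1 * (n : GL D.Idx K)⁻¹) * (tor D K c)⁻¹ =
      (n : GL D.Idx K) * (tor D K (c ^ q) * S.xG K s 1 * (tor D K (c ^ q))⁻¹) *
        (n : GL D.Idx K)⁻¹ := by
    rw [map_pow]
    calc tor D K c * ((n : GL D.Idx K) * S.xG K s 1 * (n : GL D.Idx K)⁻¹) * (tor D K c)⁻¹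
        = ((n : GL D.Idx K) * tor D K c ^ q * (n : GL D.Idx K)⁻¹) *
          ((n : GL D.Idx K) * S.xG K s 1 * (n : GL D.Idx K)⁻¹) *
          ((n : GL D.Idx K) * tor D K c ^ q * (n : GL D.Idx K)⁻¹)⁻¹ := by rw [h]
      _ = _ := by group
  rw [(hct 1).1, S.tor_conj K c (Fin.isLt _), S.tor_conj K (c ^ q) (Fin.isLt _), (hct _).1,
    hq] at h1
  have h2 := xG_inj S K (Fin.isLt _) h1
  rw [mul_one, mul_one, mul_comm e] at h2
  exact Units.ext (mul_right_cancel₀ he h2)

include S in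
/-- Bruhat: if `t x = x t^q` with `t` in the torus, some element of `N` does the same. -/
theorem exists_monomial_conj {x : GL D.Idx K} (hx : x ∈ D.group K) (q : ℕ) :
    ∃ n : ↥(D.monomialSubgroup K), ∀ t ∈ D.diagonalSubgroup K, t * x = x * t ^ q →
      (n : GL D.Idx K) * t ^ q * (n : GL D.Idx K)⁻¹ = t := by
  obtain ⟨b, hb, n, u, hu, rfl⟩ := S.normal_form_exists K hx
  refine ⟨n, fun t ht he => ?_⟩
  set t' := (n : GL D.Idx K) * t ^ q * (n : GL D.Idx K)⁻¹ with ht'
  have ht'H : t' ∈ D.diagonalSubgroup K :=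
    (Subgroup.mem_normalizer_iff.mp (S.monomial_le_normalizer K n.2) _).mp (pow_mem ht q)
  have huV : ∀ v ∈ uSub D K (S.flipSet K n),
      (n : GL D.Idx K) * v * (n : GL D.Idx K)⁻¹ ∈ D.negUnipotent K := by
    intro v hv
    refine closure_conj_mem ?_ hv
    rintro y ⟨r, t, ⟨⟨hr, hr1⟩, -⟩, hy⟩
    obtain ⟨c, -, hct⟩ := S.conj_root K n ⟨r, hr⟩
    rw [S.eq_xG K hy, show S.xG K r t = S.xG K (⟨r, hr⟩ : Fin D.nroots) t from rfl, (hct t).1]
    exact S.xG_mem_negUnipotent K hr1 _
  have hu' : (t ^ q)⁻¹ * u * t ^ q ∈ uSub D K (S.flipSet K n) := by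
    have htq := inv_mem (pow_mem ht q)
    rw [S.diagonal_eq] at htq
    obtain ⟨c, hc⟩ := htq
    have := S.tor_conj_uSub K c hu
    rwa [hc, inv_inv] at this
  have e : t * b * (n : GL D.Idx K) * u = b * t' * (n : GL D.Idx K) * ((t ^ q)⁻¹ * u * t ^ q) := by
    calc t * b * (n : GL D.Idx K) * u = t * (b * (n : GL D.Idx K) * u) := by simp only [mul_assoc]
      _ = b * (n : GL D.Idx K) * u * t ^ q := he
      _ = _ := by rw [ht']; group
  have e1 := (S.normal_form_unique K (mul_mem (Subgroup.mem_sup_right ht) hb)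
    (mul_mem hb (Subgroup.mem_sup_right ht'H)) (huV u hu) (huV _ hu') e).1
  obtain ⟨v, hv, c, hbv⟩ := (S.mem_borel K).mp hb
  have hh : tor D K c ∈ D.diagonalSubgroup K := by rw [S.diagonal_eq]; exact ⟨c, rfl⟩
  have hmemU : v⁻¹ * (t * v * t⁻¹) ∈ D.posUnipotent K :=
    mul_mem (inv_mem hv) ((Subgroup.mem_normalizer_iff.mp (S.diagonal_le_normalizer K ht) v).mp hv)
  have heq : v⁻¹ * (t * v * t⁻¹) = t' * t⁻¹ := by
    rw [hbv] at e1
    calc v⁻¹ * (t * v * t⁻¹) = v⁻¹ * (t * (v * tor D K c)) * (tor D K c)⁻¹ * t⁻¹ := by group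
      _ = v⁻¹ * (v * tor D K c * t') * (tor D K c)⁻¹ * t⁻¹ := by rw [e1]
      _ = (tor D K c * t') * (tor D K c)⁻¹ * t⁻¹ := by group
      _ = (t' * tor D K c) * (tor D K c)⁻¹ * t⁻¹ := by rw [S.diagonal_comm K hh ht'H]
      _ = t' * t⁻¹ := by group
  have h3 : t' * t⁻¹ ∈ D.posUnipotent K ⊓ D.diagonalSubgroup K :=
    Subgroup.mem_inf.mpr ⟨heq ▸ hmemU, mul_mem ht'H ((D.diagonalSubgroup K).inv_mem ht)⟩
  rw [S.posUnipotent_inf_diagonal K, Subgroup.mem_bot, mul_inv_eq_one] at h3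
  exact h3

variable {F : Type*} [Field F]

include S in
/-- The embedding of an `r`-subgroup into the torus. -/
theorem exists_torus_embedding [Finite K] (ι : F →+* K) (φ : K →+* K) {q : ℕ}
    (hφι : ∀ x, φ (ι x) = ι x) (hφ : ∀ x, φ x = x ^ q) {r : ℕ} [Fact r.Prime]
    (hv : padicValNat r (Nat.card ↥(D.group K)) =
      padicValNat r (Nat.card ↥(D.diagonalSubgroup K)))
    (P : Subgroup ↥(D.group F)) (hP : IsPGroup r P) :
    ∃ (θ : ↥P →* GL D.Idx K) (n : ↥(D.monomialSubgroup K)), Function.Injective θ ∧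
      ∀ x, θ x ∈ D.diagonalSubgroup K ∧
        (n : GL D.Idx K) * θ x ^ q * (n : GL D.Idx K)⁻¹ = θ x := by
  classical
  have : Finite (GL D.Idx K) := inferInstance
  let ψ : ↥P →* ↥(D.group K) :=
    { toFun := fun x => ⟨ChevField.gmap D ι (x : GL D.Idx F), ChevField.gmap_mem S ι x.1.2⟩
      map_one' := Subtype.ext (by simp)
      map_mul' := fun x y => Subtype.ext
        (map_mul (ChevField.gmap D ι) (x.1 : GL D.Idx F) (y.1 : GL D.Idx F)) }
  have hψ : Function.Injective ψ := fun x y h => Subtype.ext (Subtype.ext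
    (ChevField.gmap_injective ι (congrArg Subtype.val h)))
  set Tsub : Subgroup ↥(D.group K) := (D.diagonalSubgroup K).subgroupOf (D.group K)
  obtain ⟨T0⟩ : Nonempty (Sylow r Tsub) := inferInstance
  have hcT : Nat.card Tsub = Nat.card ↥(D.diagonalSubgroup K) :=
    Nat.card_congr (Subgroup.subgroupOfEquivOfLe (S.diagonal_le_group K)).toEquiv
  have hc1 : Nat.card ((T0 : Subgroup Tsub).map Tsub.subtype) =
      r ^ (Nat.card ↥(D.group K)).factorization r := by
    rw [Nat.card_congr ((T0 : Subgroup Tsub).equivMapOfInjective _ Subtype.val_injective).symm.toEquiv,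
      T0.card_eq_multiplicity, hcT, Nat.factorization_def _ Fact.out,
      Nat.factorization_def _ Fact.out, hv]
  let Q1 : Sylow r ↥(D.group K) := Sylow.ofCard _ hc1
  have hPψ : IsPGroup r ψ.range := hP.of_surjective ψ.rangeRestrict ψ.rangeRestrict_surjective
  obtain ⟨Q2, hQ2⟩ := hPψ.exists_le_sylow
  obtain ⟨g, hg⟩ := MulAction.exists_smul_eq ↥(D.group K) Q2 Q1
  have hmem : ∀ x, g * ψ x * g⁻¹ ∈ Tsub := by
    intro x
    have h1 : g * ψ x * g⁻¹ ∈ (Q1 : Subgroup ↥(D.group K)) := by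
      rw [← hg, Sylow.coe_subgroup_smul, Subgroup.mem_pointwise_smul_iff_inv_smul_mem]
      have : (MulAut.conj g)⁻¹ • (g * ψ x * g⁻¹) = ψ x := by
        rw [MulAut.smul_def, MulAut.conj_inv_apply]
        group
      rw [this]
      exact hQ2 ⟨x, rfl⟩
    have h2 : g * ψ x * g⁻¹ ∈ (T0 : Subgroup Tsub).map Tsub.subtype := h1
    obtain ⟨y, -, hy⟩ := h2
    exact hy ▸ y.2
  let θ : ↥P →* GL D.Idx K :=
    ((D.group K).subtype.comp (MulAut.conj g).toMonoidHom).comp ψ
  have hθ : ∀ x, θ x = (g : GL D.Idx K) * (ψ x : GL D.Idx K) * (g : GL D.Idx K)⁻¹ := fun x => rfl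
  have hθD : ∀ x, θ x ∈ D.diagonalSubgroup K := hmem
  set gφ := ChevField.gmap D φ
  set g' : GL D.Idx K := (g : GL D.Idx K)
  have hxmem : g' * (gφ g')⁻¹ ∈ D.group K :=
    mul_mem g.2 (inv_mem (ChevField.gmap_mem S φ g.2))
  obtain ⟨n, hn⟩ := exists_monomial_conj S K hxmem q
  refine ⟨θ, n, fun x y h => hψ ((MulAut.conj g).injective (Subtype.ext h)),
    fun x => ⟨hθD x, hn _ (hθD x) ?_⟩⟩
  have hpow : gφ (θ x) = θ x ^ q := by
    have h := hθD x
    rw [S.diagonal_eq] at h
    obtain ⟨c, hc⟩ := h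
    rw [← hc, ChevField.gmap_tor S, ← map_pow]
    congr 1
    funext j
    exact Units.ext (by simp [hφ])
  have hfix : gφ (ψ x : GL D.Idx K) = (ψ x : GL D.Idx K) := by
    refine Units.ext (Matrix.ext fun i j => ?_)
    show φ (ι _) = ι _
    exact hφι _
  rw [← hpow, hθ, map_mul, map_mul, map_inv, hfix]
  group

include S in
/-- The elements killed by `r` embed in an eigenspace of a Weyl group matrix. -/
theorem card_torsion_le [Finite K] {r q : ℕ} [Fact r.Prime] (hK : r ∣ Nat.card Kˣ)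
    (n : ↥(D.monomialSubgroup K)) {P : Type*} [Group P] [Finite P] (θ : P →* GL D.Idx K)
    (hθ : Function.Injective θ)
    (h : ∀ x, θ x ∈ D.diagonalSubgroup K ∧
      (n : GL D.Idx K) * θ x ^ q * (n : GL D.Idx K)⁻¹ = θ x) :
    ∃ L : List (Fin D.rank), Nat.card {x : P // x ^ r = 1} ≤
      r ^ Module.finrank (ZMod r) (Module.End.eigenspace
        (Matrix.toLin' ((wordMat' D L).map (Int.cast : ℤ → ZMod r))ᵀ) (q : ZMod r)) := by
  obtain ⟨L, hL⟩ := S.exists_wperm K n
  refine ⟨L, ?_⟩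
  obtain ⟨ζ, hζ⟩ := exists_prime_orderOf_dvd_card' r hK
  have hc : ∀ x, ∃ c, tor D K c = θ x := fun x => by
    have := (h x).1; rw [S.diagonal_eq] at this; exact this
  choose c hc using hc
  have hval : ∀ x : {x : P // x ^ r = 1}, ∀ m : Fin D.rank, ∃ k : ℤ,
      ζ ^ k = torusVal D (c x.1) (D.simple m) := by
    intro x m
    have h1 : tor D K (c x.1 ^ r) = tor D K 1 := by
      rw [map_pow, hc, ← map_pow, x.2, map_one, map_one]
    have h2 : torusVal D (c x.1 ^ r) (D.simple m) = 1 := by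
      have e := congrArg (fun g : GL D.Idx K => (g : Matrix D.Idx D.Idx K)) h1
      simp only [S.tor_val] at e
      rw [Units.ext_iff, dg_inj e (S.wf.simple_lt m m.isLt)]
      simp [torusVal]
    have h3 : torusVal D (c x.1) (D.simple m) ^ r = 1 := by
      rw [← h2]
      simp only [torusVal, Pi.pow_apply, ← Finset.prod_pow]
      refine Finset.prod_congr rfl fun j _ => ?_
      rw [← zpow_natCast (c x.1 j) r, ← zpow_natCast (c x.1 j ^ _) r, ← _root_.zpow_mul, ← _root_.zpow_mul,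
        mul_comm]
    have hprim : IsPrimitiveRoot (ζ : K) r :=
      IsPrimitiveRoot.coe_units_iff.mpr (hζ ▸ IsPrimitiveRoot.orderOf ζ)
    obtain ⟨i, -, hi⟩ := hprim.eq_pow_of_pow_eq_one
      (show ((torusVal D (c x.1) (D.simple m) : Kˣ) : K) ^ r = 1 by
        rw [← Units.val_pow_eq_pow_val, h3, Units.val_one])
    exact ⟨i, by rw [zpow_natCast]; exact Units.ext (by simpa using hi)⟩
  choose k hk using hval
  let v : {x : P // x ^ r = 1} → Fin D.rank → ZMod r := fun x m => (k x m : ZMod r)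
  have hv : ∀ x, v x ∈ Module.End.eigenspace
      (Matrix.toLin' ((wordMat' D L).map (Int.cast : ℤ → ZMod r))ᵀ) (q : ZMod r) := by
    intro x
    rw [Module.End.mem_eigenspace_iff, Matrix.toLin'_apply]
    funext m
    have h1 := torusVal_perm S K n (c x.1) q (by rw [hc]; exact (h x.1).2) (S.simpleF m)
    rw [hL, torusVal_eq_prod_simple S K (c x.1) (Fin.isLt _), Finset.prod_range,
      show ((S.simpleF m : Fin D.nroots) : ℕ) = D.simple m from rfl] at h1
    simp only [← hk, ← zpow_natCast, ← _root_.zpow_mul, ← wordMat'_apply S] at h1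
    rw [← prod_zpow_sum, zpow_eq_zpow_iff_modEq, hζ] at h1
    have h2 := (ZMod.intCast_eq_intCast_iff _ _ r).mpr h1
    simp only [Int.cast_sum, Int.cast_mul, Int.cast_natCast] at h2
    simp only [Matrix.mulVec, dotProduct, Matrix.transpose_apply, Matrix.map_apply, Pi.smul_apply,
      smul_eq_mul, v]
    rw [mul_comm (q : ZMod r), ← h2]
    exact Finset.sum_congr rfl fun j _ => mul_comm _ _
  have hinj : Function.Injective v := by
    intro x y e
    refine Subtype.ext (hθ ?_)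
    rw [← hc, ← hc]
    refine tor_ext S K fun m hm => ?_
    rw [← hk x ⟨m, hm⟩, ← hk y ⟨m, hm⟩, zpow_eq_zpow_iff_modEq, hζ,
      ← ZMod.intCast_eq_intCast_iff]
    exact congrFun e ⟨m, hm⟩
  refine (Nat.card_le_card_of_injective (fun x => (⟨v x, hv x⟩ : Module.End.eigenspace
    (Matrix.toLin' ((wordMat' D L).map (Int.cast : ℤ → ZMod r))ᵀ) (q : ZMod r)))
    fun x y e => hinj (congrArg Subtype.val e)).trans ?_
  rw [Module.natCard_eq_pow_finrank (K := ZMod r), Nat.card_zmod]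

end CfsgLib.CrossCharSylow
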